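import Cfsg.Agent.H10.CharP
import Cfsg.Agent.H1.Coprime

/-!
`p`-stability (`Cfsg.IsPStable`) modulo a normal `p'`-subgroup.
-/

set_option autoImplicit false

namespace H10

open Cfsg

variable {G : Type*} [Group G] {H : Type*} [Group H] {p : ℕ}

/-- The image of `A` in `N_G(P) / C_G(P)` lies in `O_p(N_G(P) / C_G(P))`. -/
abbrev StabConcl (p : ℕ) (A P : Subgroup G) : Prop :=
  (A.subgroupOf (Subgroup.normalizer (P : Set G))).map
    (QuotientGroup.mk' ((Subgroup.centralizer (P : Set G)).subgroupOf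
      (Subgroup.normalizer (P : Set G)))) ≤ pCore p _

theorem stabConcl_iff_map [Finite G] [Fact p.Prime] (f : G →* H) (hf : Function.Surjective f)
    (hk : (Nat.card f.ker).Coprime p) {A P : Subgroup G} (hP : IsPGroup p P)
    (hA : A ≤ Subgroup.normalizer (P : Set G)) :
    StabConcl p A P ↔ StabConcl p (A.map f) (P.map f) := by
  have hN := map_normalizer_of_coprime_ker f hf hk hP
  let φ : Subgroup.normalizer (P : Set G) →* Subgroup.normalizer (P.map f : Set H) :=
    (f.comp (Subgroup.subtype _)).codRestrict _ fun x => hN ▸ ⟨x, x.2, rfl⟩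
  have hφ : Function.Surjective φ := by
    rintro ⟨y, hy⟩
    rw [← hN] at hy
    obtain ⟨x, hx, rfl⟩ := hy
    exact ⟨⟨x, hx⟩, rfl⟩
  have h1 := comap_pCore_eq_of_ker_eq (p := p)
    (QuotientGroup.mk' ((Subgroup.centralizer (P : Set G)).subgroupOf
      (Subgroup.normalizer (P : Set G))))
    ((QuotientGroup.mk' ((Subgroup.centralizer (P.map f : Set H)).subgroupOf
      (Subgroup.normalizer (P.map f : Set H)))).comp φ) (QuotientGroup.mk'_surjective _)
    ((QuotientGroup.mk'_surjective _).comp hφ) (by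
      rw [← MonoidHom.comap_ker, QuotientGroup.ker_mk', QuotientGroup.ker_mk']
      ext x
      refine ⟨fun hx => ?_, fun hx => mem_centralizer_of_map_mem f hk hP x.2 hx⟩
      rintro _ ⟨y, hy, rfl⟩
      change f y * f x = f x * f y
      rw [← map_mul, ← map_mul]
      exact congrArg f (hx y hy))
  have h2 : (A.subgroupOf (Subgroup.normalizer (P : Set G))).map φ =
      (A.map f).subgroupOf (Subgroup.normalizer (P.map f : Set H)) := by
    ext y
    constructor
    · rintro ⟨x, hx, rfl⟩
      exact ⟨x, hx, rfl⟩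
    · rintro ⟨x, hx, hxy⟩
      exact ⟨⟨x, hA hx⟩, hx, Subtype.ext hxy⟩
  unfold StabConcl
  rw [Subgroup.map_le_iff_le_comap, h1, ← Subgroup.map_le_iff_le_comap, ← Subgroup.map_map, h2]

theorem comap_pPrimeCore_sup_map [Finite G] (f : G →* H) (hf : Function.Surjective f)
    (hk : (Nat.card f.ker).Coprime p) (P : Subgroup G) :
    (pPrimeCore p H ⊔ P.map f).comap f = pPrimeCore p G ⊔ P := by
  rw [← H2.map_pPrimeCore_of_coprime_ker f hf hk, ← Subgroup.map_sup, Subgroup.comap_map_eq,
    sup_eq_left]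
  exact (H2.le_pPrimeCore hk).trans le_sup_left

theorem isPStable_of_map [Finite G] [Fact p.Prime] (f : G →* H) (hf : Function.Surjective f)
    (hk : (Nat.card f.ker).Coprime p) (hO : pCore p G ≠ ⊥) (h : IsPStable p H) :
    IsPStable p G := by
  refine ⟨h.1, hO, fun A P hA hP hAP hle hn hq => ?_⟩
  refine (stabConcl_iff_map f hf hk hP (H1.le_normalizer_of_conj_mem hAP)).mpr
    (h.2.2 _ _ (hA.map f) (hP.map f) ?_ ?_ ?_ ?_)
  · rintro _ ⟨a, ha, rfl⟩ _ ⟨x, hx, rfl⟩
    exact ⟨_, hAP a ha x hx, by simp⟩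
  · rwa [Subgroup.map_le_iff_le_comap, comap_pPrimePCore_of_coprime_ker f hf hk]
  · rw [← H2.map_pPrimeCore_of_coprime_ker f hf hk, ← Subgroup.map_sup]
    exact hn.map f hf
  · rw [← Subgroup.map_commutator, ← Subgroup.map_commutator, hq, Subgroup.map_bot]

theorem isPStable_map [Finite G] [Fact p.Prime] (f : G →* H) (hf : Function.Surjective f)
    (hk : (Nat.card f.ker).Coprime p) (h : IsPStable p G) : IsPStable p H := by
  refine ⟨h.1, fun hb => h.2.1 ?_, fun A P hA hP hAP hle hn hq => ?_⟩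
  · have h1 := H2.map_pCore_le_of_surjective (p := p) f hf
    rw [hb, le_bot_iff, Subgroup.map_eq_bot_iff] at h1
    exact (H2.disjoint_of_isPGroup_of_coprime (H2.pCore_isPGroup p G) hk).eq_bot_of_le h1
  · have hAN := H1.le_normalizer_of_conj_mem hAP
    obtain ⟨R, hR, hRf⟩ := exists_isPGroup_map_eq f hf (hA.to_sup_of_normal_right' hP hAN)
    have hmap : ∀ X : Subgroup H, X ≤ A ⊔ P → (R ⊓ X.comap f).map f = X := by
      intro X hX
      apply le_antisymm
      · rw [Subgroup.map_le_iff_le_comap]; exact inf_le_right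
      · intro x hx
        have := hX hx
        rw [← hRf] at this
        obtain ⟨r, hr, rfl⟩ := this
        exact ⟨r, ⟨hr, hx⟩, rfl⟩
    have hA' := hmap A le_sup_left
    have hP' := hmap P le_sup_right
    have hc : ∀ a ∈ R ⊓ A.comap f, ∀ x ∈ R ⊓ P.comap f, a * x * a⁻¹ ∈ R ⊓ P.comap f := by
      intro a ha x hx
      refine ⟨R.mul_mem (R.mul_mem ha.1 hx.1) (R.inv_mem ha.1), ?_⟩
      have := hAP _ ha.2 _ hx.2
      simpa using this
    have h1 := h.2.2 (R ⊓ A.comap f) (R ⊓ P.comap f) (hR.to_le inf_le_left)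
      (hR.to_le inf_le_left) hc ?_ ?_ ?_
    · have h2 := (stabConcl_iff_map f hf hk (hR.to_le inf_le_left)
        (H1.le_normalizer_of_conj_mem hc)).mp h1
      rwa [hA', hP'] at h2
    · rw [← comap_pPrimePCore_of_coprime_ker f hf hk]
      exact inf_le_right.trans (Subgroup.comap_mono hle)
    · rw [← comap_pPrimeCore_sup_map f hf hk, hP']
      exact hn.comap f
    · have h3 : ⁅R ⊓ P.comap f, R ⊓ A.comap f⁆ ≤ R :=
        (Subgroup.commutator_le_sup _ _).trans (sup_le inf_le_left inf_le_left)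
      refine eq_bot_iff.mpr (le_of_map_le_of_isPGroup f hk hR
        ((Subgroup.commutator_le_sup _ _).trans (sup_le h3 inf_le_left)) bot_le ?_)
      rw [Subgroup.map_commutator, Subgroup.map_commutator, hA', hP', hq, Subgroup.map_bot]

theorem isPStable_iff_of_coprime_ker [Finite G] [Fact p.Prime] (f : G →* H)
    (hf : Function.Surjective f) (hk : (Nat.card f.ker).Coprime p) (hO : pCore p G ≠ ⊥) :
    IsPStable p G ↔ IsPStable p H :=
  ⟨isPStable_map f hf hk, isPStable_of_map f hf hk hO⟩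

end H10
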