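import Cfsg.Agent.H10.StableNormal
import Cfsg.Agent.H10.PStable
import Cfsg.Agent.H7.Stable

/-!
If all sections of `G` act `p`-stably on their minimal normal elementary abelian `p`-subgroups,
then `G` is `p`-stable in each of the senses of the Prelude.
-/

set_option autoImplicit false

namespace H10

open Cfsg

universe u

variable {p : ℕ}

/-- In every section `H` of `G`, an element acting quadratically on a minimal normal elementary
abelian `p`-subgroup `W` of `H` centralizes `W`. -/
def SectionsStable (p : ℕ) (G : Type u) [Group G] : Prop :=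
  ∀ (K : Subgroup G) (H : Type u) [Group H] [Finite H] (f : K →* H), Function.Surjective f →
    ∀ (W : Subgroup H) [W.Normal], IsElementaryAbelian p W →
      (∀ L : Subgroup H, L.Normal → L ≤ W → L = ⊥ ∨ L = W) →
      ∀ a : H, ⁅⁅W, Subgroup.zpowers a⁆, Subgroup.zpowers a⁆ = ⊥ →
        a ∈ Subgroup.centralizer (W : Set H)

/-- It suffices to check `p`-stability on normal elementary abelian subgroups of sections. -/
theorem sectionsStable_of_isPStableOn [Fact p.Prime] {G : Type u} [Group G]
    (h : ∀ (K : Subgroup G) (H : Type u) [Group H] [Finite H] (f : K →* H),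
      Function.Surjective f → ∀ (W : Subgroup H) [W.Normal], IsElementaryAbelian p W →
        IsPStableOn p W) : SectionsStable p G := by
  intro K H _ _ f hf W _ hW hmin a ha
  have h1 := h K H f hf W hW a ha
  rw [H7.pCore_quotient_centralizer_eq_bot_of_minimal W
    (fun x => ⟨1, Subtype.ext (by simpa using hW.2 x x.2)⟩) hmin, Subgroup.mem_bot,
    QuotientGroup.eq_one_iff] at h1
  exact h1

variable {G : Type u} [Group G] [Finite G] [Fact p.Prime]

omit [Finite G] in
theorem SectionsStable.isPStableOn_section (h : SectionsStable p G) (K : Subgroup G)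
    {H : Type u} [Group H] [Finite H] (f : K →* H) (hf : Function.Surjective f)
    (V : Subgroup H) [V.Normal] (hV : IsPGroup p V) : IsPStableOn p V :=
  H7.isPStableOn_of_chief (fun H' _ _ g hg => h K H' (g.comp f) (hg.comp hf)) V hV

theorem SectionsStable.isPStableOn_subgroup (h : SectionsStable p G) (K : Subgroup G)
    (V : Subgroup K) [V.Normal] (hV : IsPGroup p V) : IsPStableOn p V :=
  h.isPStableOn_section K (MonoidHom.id K) Function.surjective_id V hV

theorem SectionsStable.isPStableOn_quotient (h : SectionsStable p G) {H : Type u} [Group H]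
    [Finite H] (f : G →* H) (hf : Function.Surjective f) (V : Subgroup H) [V.Normal]
    (hV : IsPGroup p V) : IsPStableOn p V :=
  h.isPStableOn_section ⊤ (f.comp (Subgroup.subtype ⊤))
    (fun y => let ⟨x, hx⟩ := hf y; ⟨⟨x, trivial⟩, hx⟩) V hV

theorem SectionsStable.isPStableOn (h : SectionsStable p G) (V : Subgroup G) [V.Normal]
    (hV : IsPGroup p V) : IsPStableOn p V :=
  h.isPStableOn_quotient (MonoidHom.id G) Function.surjective_id V hV

omit [Fact p.Prime] [Finite G] in
theorem SectionsStable.subgroup (h : SectionsStable p G) (K : Subgroup G) :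
    SectionsStable p K := fun L H _ _ f hf =>
  h (L.map K.subtype) H (f.comp (L.equivMapOfInjective K.subtype K.subtype_injective).symm)
    (hf.comp (MulEquiv.surjective _))

omit [Fact p.Prime] [Finite G] in
theorem SectionsStable.quotient (h : SectionsStable p G) {H : Type u} [Group H] (f : G →* H)
    (hf : Function.Surjective f) : SectionsStable p H := fun L H' _ _ g hg =>
  h (L.comap f) H' (g.comp (f.subgroupComap L)) (hg.comp (f.subgroupComap_surjective_of_surjective L hf))

/-- `p`-stability on the image of `K` in `G / N` gives `p`-stability on the section `K / N`. -/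
theorem isPStableOnSection_of_isPStableOn (K N : Subgroup G) [N.Normal]
    [(K.map (QuotientGroup.mk' N)).Normal] (h : IsPStableOn p (K.map (QuotientGroup.mk' N))) :
    IsPStableOnSection p K N := by
  intro a ha
  set C := Subgroup.centralizer (K.map (QuotientGroup.mk' N) : Set (G ⧸ N)) with hC
  let π := (QuotientGroup.mk' C).comp (QuotientGroup.mk' N)
  have hker : π.ker = sectionKernel K N := by
    rw [← MonoidHom.comap_ker, QuotientGroup.ker_mk']
    rfl
  refine ⟨(pCore p _).comap π, inferInstance, ?_, ?_, ?_⟩
  · rw [← hker]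
    exact π.ker_le_comap _
  · rw [← hker, Subgroup.relIndex_ker]
    exact ((H2.pCore_isPGroup p _).to_le (Subgroup.map_comap_le π _)).exists_card_eq
  · refine h (QuotientGroup.mk' N a) ?_
    rw [← MonoidHom.map_zpowers, ← Subgroup.map_commutator, ← Subgroup.map_commutator,
      Subgroup.map_eq_bot_iff, QuotientGroup.ker_mk']
    exact ha

theorem SectionsStable.isPStableOnSection (h : SectionsStable p G) (K N : Subgroup G) [K.Normal]
    [N.Normal] (hK : IsPGroup p K) : IsPStableOnSection p K N := by
  have : (K.map (QuotientGroup.mk' N)).Normal :=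
    Subgroup.Normal.map inferInstance _ (QuotientGroup.mk'_surjective N)
  exact isPStableOnSection_of_isPStableOn K N
    (h.isPStableOn_quotient _ (QuotientGroup.mk'_surjective N) _ (hK.map _))

theorem SectionsStable.isActionPStable (h : SectionsStable p G) : IsActionPStable p G := by
  refine ⟨fun V _ hV => h.isPStableOn V fun x => ⟨1, Subtype.ext (by simpa using hV.2 x x.2)⟩,
    h.isPStableOnSection _ _ (H2.pCore_isPGroup p G), fun S V _ hV => ?_⟩
  refine h.isPStableOn_subgroup _ V ?_
  exact (S.isPGroup'.to_le (hV.trans (Subgroup.map_subtype_le _))).of_equiv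
    (V.equivMapOfInjective _ (Subgroup.subtype_injective _)).symm

/-- The conclusion of `p`-stability for every `p`-subgroup `P` and every `A` normalizing it. -/
theorem SectionsStable.stabConcl (h : SectionsStable p G) {A P : Subgroup G} (hP : IsPGroup p P)
    (hq : ⁅⁅P, A⁆, A⁆ = ⊥) : StabConcl p A P := by
  set N := Subgroup.normalizer (P : Set G) with hN
  have hn : (P.subgroupOf N).Normal := Subgroup.normal_in_normalizer
  have hC : (Subgroup.centralizer (P : Set G)).subgroupOf N =
      Subgroup.centralizer (P.subgroupOf N : Set N) := by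
    ext x
    rw [Subgroup.mem_subgroupOf, Subgroup.mem_centralizer_iff, Subgroup.mem_centralizer_iff]
    exact ⟨fun hx y hy => Subtype.ext (hx y hy),
      fun hx y hy => congrArg Subtype.val (hx ⟨y, Subgroup.le_normalizer hy⟩ hy)⟩
  have h1 := comap_pCore_eq_of_ker_eq (p := p)
    (QuotientGroup.mk' ((Subgroup.centralizer (P : Set G)).subgroupOf N))
    (QuotientGroup.mk' (Subgroup.centralizer (P.subgroupOf N : Set N)))
    (QuotientGroup.mk'_surjective _) (QuotientGroup.mk'_surjective _)
    (by rw [QuotientGroup.ker_mk', QuotientGroup.ker_mk', hC])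
  unfold StabConcl
  rw [Subgroup.map_le_iff_le_comap, h1]
  intro a ha
  refine h.isPStableOn_subgroup N (P.subgroupOf N) (hP.comap_subtype) a ?_
  rw [← Subgroup.map_eq_bot_iff_of_injective _ N.subtype_injective, Subgroup.map_commutator,
    Subgroup.map_commutator, MonoidHom.map_zpowers, eq_bot_iff, ← hq]
  have h2 : Subgroup.zpowers (N.subtype a) ≤ A := Subgroup.zpowers_le_of_mem ha
  exact Subgroup.commutator_mono (Subgroup.commutator_mono
    (Subgroup.map_comap_le N.subtype P) h2) h2

theorem SectionsStable.isPStable (h : SectionsStable p G) (hp : p ≠ 2) (hO : pCore p G ≠ ⊥) :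
    IsPStable p G :=
  ⟨(Fact.out : p.Prime).odd_of_ne_two hp, hO, fun _ _ _ hP _ _ _ hq => h.stabConcl hP hq⟩

/-- For odd `p`, a group with a normal subgroup `M` of `p`-power index whose derived subgroup is a
`p`-group has `p`-stable sections. -/
theorem sectionsStable_of_normal (hp : p ≠ 2) (M : Subgroup G) [M.Normal]
    (h1 : IsPGroup p (G ⧸ M)) (h2 : IsPGroup p (⁅M, M⁆ : Subgroup G)) : SectionsStable p G := by
  refine sectionsStable_of_isPStableOn fun K H _ _ f hf W _ hW => ?_
  refine H7.isPStableOn_of_isPGroup_commutator_pResidual hp ?_ W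
    fun x => ⟨1, Subtype.ext (by simpa using hW.2 x x.2)⟩
  have h3 : pResidual p K ≤ M.subgroupOf K := by
    apply H7.pResidual_le_of_isPGroup_quotient
    refine h1.of_injective (QuotientGroup.map _ M K.subtype le_rfl) ?_
    rw [← MonoidHom.ker_eq_bot_iff, eq_bot_iff]
    intro x hx
    obtain ⟨y, rfl⟩ := QuotientGroup.mk_surjective x
    exact (QuotientGroup.eq_one_iff y).mpr ((QuotientGroup.eq_one_iff (y : G)).mp hx)
  rw [← H7.map_pResidual_of_surjective f hf, ← Subgroup.map_commutator]
  refine IsPGroup.map (h2.comap_subtype.to_le (K := (⁅M, M⁆ : Subgroup G).subgroupOf K) ?_) f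
  refine (Subgroup.commutator_mono h3 h3).trans ?_
  refine Subgroup.map_le_iff_le_comap.mp ?_
  rw [Subgroup.map_commutator]
  exact Subgroup.commutator_mono (Subgroup.map_comap_le _ _) (Subgroup.map_comap_le _ _)

theorem ThompsonMinimal.sectionsStable (hp : p ≠ 2) {S : Subgroup G} (hS : IsPGroup p S)
    (h : ThompsonMinimal p S) : SectionsStable p G := by
  obtain ⟨M, hM, h1, h2⟩ := h.exists_normal hS
  exact sectionsStable_of_normal hp M h1 ((H2.pCore_isPGroup p G).to_le h2)

end H10
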