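import Cfsg.Agent.H12.CLSpec

/-! CL3 tower, chapter 3, section CEN: a local multiple that centralises the group is a scalar. -/

set_option autoImplicit false
set_option linter.unusedSectionVars false

namespace H10.CLCEN

open Module H12.CL

section lin

variable {K V : Type} [Field K] [AddCommGroup V] [Module K V]

theorem quat {i j y : End K V} {κ κ' c : K} (h2 : (2 : K) ≠ 0) (hκ : κ ≠ 0) (hκ' : κ' ≠ 0)
    (hc : c ≠ 0) (ii : ∀ x, i (i x) = κ • x) (jj : ∀ x, j (j x) = κ' • x)
    (ij : ∀ x, j (i x) = -i (j x)) (yi : ∀ x, y (i x) = i (y x)) (yj : ∀ x, y (j x) = j (y x))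
    (ne : ∀ x (a : K), i x = a • x → x = 0) {v : V} (v0 : v ≠ 0) (yv : y v = c • i v)
    (h : ∀ u, u = v + j v + i (j v) → ∃ c' : K, y u = c' • u ∨ y u = c' • i u ∨ y u = c' • j u ∨
      y u = c' • i (j u)) : False := by
  have two : ∀ (x : V) (α β : K), x ≠ 0 → α • x + β • i x = 0 → α = 0 ∧ β = 0 := fun x α β x0 e => by
    have b : β = 0 := by
      by_contra b
      refine x0 (ne x (-α / β) (smul_right_injective V b ?_))
      have : β * (-α / β) = -α := by field_simp
      simp only [smul_smul, this]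
      linear_combination (norm := module) e
    rw [b, zero_smul, add_zero] at e
    exact ⟨(smul_eq_zero.1 e).resolve_right x0, b⟩
  have j0 : j v ≠ 0 := fun e => v0 (by
    have := jj v
    rw [e, map_zero] at this
    exact (smul_eq_zero.1 this.symm).resolve_left hκ')
  have y1 : y (i v) = (c * κ) • v := by rw [yi, yv, map_smul, ii, smul_smul]
  have y2 : y (j v) = -c • i (j v) := by rw [yj, yv, map_smul, ij]; module
  have y3 : y (i (j v)) = -(c * κ) • j v := by rw [yi, y2, map_smul, ii]; module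
  have ind : ∀ α β γ δ : K, α • v + β • i v + γ • j v + δ • i (j v) = 0 →
      β = 0 ∧ γ = 0 ∧ δ = 0 := fun α β γ δ e => by
    have e1 := congrArg y e
    have e2 := congrArg i e
    simp only [map_add, map_smul, map_zero, yv, y1, y2, y3, ii] at e1 e2
    obtain ⟨a, b⟩ := two v (2 * c * κ * β) (2 * c * α) v0
      (by linear_combination (norm := module) e1 + c • e2)
    have a' : β = 0 := by simpa [h2, hc, hκ] using a
    have b' : α = 0 := by simpa [h2, hc] using b
    rw [a', b', zero_smul, zero_smul, zero_add, zero_add] at e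
    exact ⟨a', two _ _ _ j0 e⟩
  obtain ⟨c', h⟩ := h _ rfl
  simp only [map_add, map_smul, map_neg, yv, y2, y3, ii, jj, ij] at h
  rcases h with h | h | h | h
  · exact hc (ind (-c') c (-(c * κ) - c') (-c - c') (by linear_combination (norm := module) h)).1
  · obtain ⟨a, -, b⟩ := ind 0 (c - c') (-(c * κ) - c' * κ) (-c - c')
      (by linear_combination (norm := module) h)
    exact mul_ne_zero h2 hc (by linear_combination a - b)
  · exact hc (neg_eq_zero.1 (ind (-(c' * κ')) (c + c' * κ') (-(c * κ) - c') (-c)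
      (by linear_combination (norm := module) h)).2.2)
  · exact mul_ne_zero hc hκ (neg_eq_zero.1 (ind (c' * κ * κ') (c - c' * κ') (-(c * κ)) (-c - c')
      (by linear_combination (norm := module) h)).2.1)

end lin

section ex

variable {r : ℕ} {K V W : Type} [Field K] [AddCommGroup V] [Module K V] [AddCommGroup W]
  [Module (ZMod r) W] (S : Ex r K V W) {M N D : Submodule (ZMod r) W} {v₀ v : V}

theorem chi_zero : S.χ 0 = 1 := (S.χ_eq 0).2 rfl

theorem t_inj (a : W) (h : S.t a v = 0) : v = 0 := by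
  obtain ⟨c, c0, e⟩ := S.t_mul (-a) a
  have := LinearMap.congr_fun e v
  rw [End.mul_apply, h, map_zero, neg_add_cancel, S.t_zero] at this
  exact (smul_eq_zero.1 this.symm).resolve_left c0

theorem cm_t {w : W} (h : S.Cm M v₀ w v) (a : W) : S.Cm M v₀ (w + a) (S.t a v) := fun m hm c e => by
  have := LinearMap.congr_fun (S.comm m a) v
  simp only [End.mul_apply, LinearMap.smul_apply] at this
  rw [this, h m hm c e, map_smul, smul_smul, map_add, S.χ_add]
  congr 1; ring

theorem cm_add {w : W} {v' : V} (h : S.Cm M v₀ w v) (h' : S.Cm M v₀ w v') :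
    S.Cm M v₀ w (v + v') := fun m hm c e => by rw [map_add, h m hm c e, h' m hm c e, smul_add]

theorem cm_d (fr : Fr S.B S.Gd M N D) (h : S.Cm M v₀ 0 v) {d : W} (hd : d ∈ D) :
    S.Cm M v₀ 0 (S.t d v) := fun m hm c e => by
  have := cm_t S h d m hm c e
  rwa [zero_add, fr.oM m hm d hd, ← map_zero (S.B m)] at this

theorem skew {B : LinearMap.BilinForm (ZMod r) W} (h : Sp B) (a b : W) : B a b = -B b a := by
  have := h.alt (a + b)
  simp only [map_add, LinearMap.add_apply, h.alt] at this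
  linear_combination this

end ex

theorem z2 : ∀ x : ZMod 2, x ≠ 0 → x = 1 := by decide
theorem z3 : ∀ x : ZMod 2, 1 = 1 + 1 + x → x = 1 := by decide
theorem z4 : ¬ (1 + 1 : ZMod 2) = 1 := by decide

theorem jobCEN : JobCEN := by
  intro r _ K V W _ _ _ _ _ _ _ _ _ _ S ty M N D v₀ P fr pt y loc cm
  have cm' : ∀ a x, y (S.t a x) = S.t a (y x) := fun a x => LinearMap.congr_fun (cm a) x
  have s1 : ∀ v, S.Cm M v₀ 0 v → ∃ d ∈ D, ∃ c : K, y v = c • S.t d v := fun v hv => by
    have yv : S.Cm M v₀ 0 (y v) := fun m hm c e => by rw [← cm', hv m hm c e, map_smul]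
    obtain ⟨a, c, e⟩ := loc v
    by_cases ha : 0 - (0 + a) ∈ M ⊔ D
    · rw [zero_add, zero_sub, neg_mem_iff] at ha
      obtain ⟨m, hm, d, hd, rfl⟩ := Submodule.mem_sup.1 ha
      obtain ⟨l, hl⟩ := (pt.st m).2 hm
      obtain ⟨k, k0, hk⟩ := S.t_mul d m
      have := LinearMap.congr_fun hk v
      simp only [End.mul_apply, LinearMap.smul_apply, hv m hm l hl, map_smul] at this
      refine ⟨d, hd, c * (k⁻¹ * (S.χ (S.B m 0) * l)), ?_⟩
      rw [e, add_comm, mul_smul, mul_smul, this, smul_smul k⁻¹, inv_mul_cancel₀ k0, one_smul]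
    · refine ⟨0, zero_mem _, 0, ?_⟩
      rw [← pt.self 0 0 _ yv (by simp), e, map_smul, pt.zero 0 _ _ (cm_t S hv a) ha, smul_zero,
        zero_smul]
  have s2 : ∀ v, S.Cm M v₀ 0 v → ∃ c : K, y v = c • v := fun v hv => by
    obtain ⟨d, hd, c, e⟩ := s1 v hv
    by_cases d0 : d = 0
    · exact ⟨c, by rw [e, d0, S.t_zero]; rfl⟩
    by_cases c0 : c = 0
    · exact ⟨0, by rw [e, c0, zero_smul, zero_smul]⟩
    by_cases v0 : v = 0
    · exact ⟨0, by rw [v0, map_zero, smul_zero]⟩
    exfalso
    rcases ty with ty | ⟨rfl, Q, hQ, hG⟩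
    · exact d0 (fr.an d hd (ty d))
    have aa : ∀ a : W, a + a = 0 := fun a => by
      rw [← two_smul (ZMod 2) a, show (2 : ZMod 2) = 0 from rfl, zero_smul]
    have q1 : ∀ a ∈ D, a ≠ 0 → Q a = 1 := fun a ha a0 =>
      z2 _ fun e => a0 (fr.an a ha ((hG a).2 e))
    have b1 : ∀ a ∈ D, ∀ b ∈ D, a ≠ 0 → b ≠ 0 → a ≠ b → S.B a b = 1 := fun a ha b hb a0 b0 ab => by
      have := hQ a b
      rw [q1 a ha a0, q1 b hb b0, q1 _ (add_mem ha hb) fun e => ab (by
        rw [← add_zero a, ← aa b, ← add_assoc, e, zero_add])] at this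
      exact z3 _ this
    obtain ⟨d', hd', bd⟩ : ∃ d' ∈ D, S.B d d' = 1 := by
      by_contra k
      push Not at k
      refine d0 (S.sp.nd d fun w => ?_)
      obtain ⟨m, hm, n, hn, d', hd', rfl⟩ := fr.dec w
      rw [map_add, map_add, skew S.sp d m, skew S.sp d n, fr.oM m hm d hd, fr.oN n hn d hd]
      simpa using by_contra fun a => k d' hd' (z2 _ a)
    have d'0 : d' ≠ 0 := fun e => by rw [e, map_zero] at bd; exact zero_ne_one bd
    have four : ∀ a ∈ D, a = 0 ∨ a = d ∨ a = d' ∨ a = d + d' := fun a ha => by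
      by_contra k
      push Not at k
      have := b1 a ha _ (add_mem hd hd') k.1 (fun e => by
        have : d' = d := by rw [← add_zero d', ← aa d, ← add_assoc, add_comm d' d, e, zero_add]
        rw [this, S.sp.alt] at bd
        exact zero_ne_one bd) k.2.2.2
      rw [map_add, b1 a ha d hd k.1 d0 k.2.1, b1 a ha d' hd' k.1 d'0 k.2.2.1] at this
      exact z4 this
    have x1 : S.χ 1 ≠ 1 := fun e => one_ne_zero ((S.χ_eq 1).1 e)
    have x2 : S.χ 1 = -1 := by
      have := S.χ_add 1 1
      rw [show (1 + 1 : ZMod 2) = 0 from rfl, chi_zero] at this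
      exact (mul_self_eq_one_iff.1 this.symm).resolve_left x1
    obtain ⟨κ, κ0, hκ⟩ := S.t_mul d d
    obtain ⟨κ', κ'0, hκ'⟩ := S.t_mul d' d'
    obtain ⟨k, k0, hk⟩ := S.t_mul d d'
    rw [aa, S.t_zero] at hκ hκ'
    refine quat (i := S.t d) (j := S.t d') (fun e => x1 (by rw [x2]; linear_combination -e)) κ0 κ'0 c0
      (LinearMap.congr_fun hκ) (LinearMap.congr_fun hκ') (fun x => ?_) (cm' d) (cm' d')
      (fun x a h => by_contra fun x0 => d0 (fr.an d hd ⟨x, x0, a, h⟩)) v0 e fun u hu => ?_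
    · have := LinearMap.congr_fun (S.comm d d') x
      simp only [End.mul_apply, LinearMap.smul_apply, bd, x2] at this
      rw [this]; simp
    · obtain ⟨a, ha, c', e'⟩ := s1 u (hu ▸ cm_add S (cm_add S hv (cm_d S fr hv hd'))
        (cm_d S fr (cm_d S fr hv hd') hd))
      rcases four a ha with rfl | rfl | rfl | rfl
      · exact ⟨c', .inl (by rw [e', S.t_zero]; rfl)⟩
      · exact ⟨c', .inr (.inl e')⟩
      · exact ⟨c', .inr (.inr (.inl e'))⟩
      · refine ⟨c' * k⁻¹, .inr (.inr (.inr ?_))⟩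
        have := LinearMap.congr_fun hk u
        simp only [End.mul_apply, LinearMap.smul_apply] at this
        rw [e', this, smul_smul, inv_mul_cancel_right₀ k0]
  have h0 : S.Cm M v₀ 0 v₀ := fun m _ c e => by rw [map_zero, chi_zero, one_mul, e]
  obtain ⟨c₀, e₀⟩ := s2 v₀ h0
  have s3 : ∀ v, S.Cm M v₀ 0 v → y v = c₀ • v := fun v hv => by
    obtain ⟨c, e⟩ := s2 v hv
    obtain ⟨c', e'⟩ := s2 _ (cm_add S h0 hv)
    rw [map_add, e, e₀] at e'
    by_cases k : c' = c
    · have : (c₀ - c) • v₀ = 0 := by rw [k] at e'; linear_combination (norm := module) e'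
      rw [e, sub_eq_zero.1 ((smul_eq_zero.1 this).resolve_right pt.ne)]
    · have k' := sub_ne_zero.2 k
      have : (c' - c) • v = (c₀ - c') • v₀ := by linear_combination (norm := module) -e'
      refine smul_right_injective V k' ?_
      simp only
      rw [← map_smul, smul_comm, this, map_smul, e₀, smul_comm]
  refine ⟨c₀, sub_eq_zero.1 (pt.ext _ fun w v hv => t_inj S (-w) ?_)⟩
  have := s3 _ (add_neg_cancel w ▸ cm_t S hv (-w))
  rw [LinearMap.sub_apply, map_sub, ← cm', this]
  simp

end H10.CLCEN
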