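import Cfsg.Agent.H91.CL3Spec

/-! CL3 tower, section STR: the subgroup of class two and its pieces. -/

set_option autoImplicit false
set_option linter.unusedSectionVars false

namespace H10.CLSTR

open Subgroup H91.CL
open scoped commutatorElement

section grp

variable {Γ : Type} [Group Γ] {G T : Subgroup Γ}

theorem nor_iff : G ≤ normalizer (T : Set Γ) ↔ ∀ g ∈ G, ∀ x ∈ T, g * x * g⁻¹ ∈ T :=
  ⟨fun h g hg x hx => (mem_normalizer_iff.1 (h hg) x).1 hx, fun h g hg =>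
    mem_normalizer_iff.2 fun x => ⟨h g hg x, fun k => by
      simpa [mul_assoc] using h g⁻¹ (inv_mem hg) _ k⟩⟩

theorem nor_of_le_comap (h : ∀ g ∈ G, T ≤ T.comap (MulAut.conj g).toMonoidHom) :
    G ≤ normalizer (T : Set Γ) := nor_iff.2 fun g hg _ hx => h g hg hx

theorem nor_cen (h : G ≤ normalizer (T : Set Γ)) {U : Subgroup Γ} (h' : G ≤ normalizer (U : Set Γ)) :
    G ≤ normalizer ((U ⊓ centralizer (T : Set Γ) : Subgroup Γ) : Set Γ) :=
  nor_iff.2 fun g hg x hx => ⟨nor_iff.1 h' g hg x hx.1, mem_centralizer_iff.2 fun t ht => by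
    have := mem_centralizer_iff.1 hx.2 _ (nor_iff.1 h g⁻¹ (inv_mem hg) t ht)
    calc t * (g * x * g⁻¹) = g * (g⁻¹ * t * g⁻¹⁻¹ * x) * g⁻¹ := by group
      _ = _ := by rw [this]; group⟩

theorem nor_sup {U : Subgroup Γ} (h : G ≤ normalizer (T : Set Γ)) (h' : G ≤ normalizer (U : Set Γ)) :
    G ≤ normalizer ((T ⊔ U : Subgroup Γ) : Set Γ) :=
  nor_of_le_comap fun g hg => sup_le (fun x hx => mem_sup_left (nor_iff.1 h g hg x hx))
    fun x hx => mem_sup_right (nor_iff.1 h' g hg x hx)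

theorem nor_sSup {J : Set (Subgroup Γ)} (h : ∀ T ∈ J, G ≤ normalizer (T : Set Γ)) :
    G ≤ normalizer ((sSup J : Subgroup Γ) : Set Γ) :=
  nor_of_le_comap fun g hg => sSup_le fun T hT x hx =>
    mem_sSup_of_mem hT (nor_iff.1 (h T hT) g hg x hx)

theorem nor_comm (h : G ≤ normalizer (T : Set Γ)) :
    G ≤ normalizer ((⁅T, T⁆ : Subgroup Γ) : Set Γ) :=
  nor_of_le_comap fun g hg => commutator_le.2 fun x hx y hy => by
    rw [mem_comap, map_commutatorElement]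
    exact commutator_mem_commutator (nor_iff.1 h g hg x hx) (nor_iff.1 h g hg y hy)

theorem comm_lt (hs : Group.IsSolvable T) (h : T ≠ ⊥) : ⁅T, T⁆ < T := by
  have := (nontrivial_iff_ne_bot T).2 h
  have k := Group.IsSolvable.commutator_lt_top_of_nontrivial T
  rw [← map_subtype_commutator]
  conv_rhs => rw [← range_subtype T, MonoidHom.range_eq_map]
  exact (map_lt_map_iff_of_injective T.subtype_injective).2 k

theorem ex_prime {A : Subgroup Γ} {x : Γ} (hx : x ∉ A) :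
    ∀ n : ℕ, n ≠ 0 → x ^ n ∈ A → ∃ r k : ℕ, r.Prime ∧ x ^ k ∉ A ∧ (x ^ k) ^ r ∈ A := by
  intro n
  induction n using induction_on_primes with
  | zero => exact fun h => absurd rfl h
  | one => exact fun _ h => absurd (by simpa using h) hx
  | prime_mul p a hp ih =>
    intro h0 h
    by_cases c : x ^ a ∈ A
    · exact ih (right_ne_zero_of_mul h0) c
    · exact ⟨p, a, hp, c, by rwa [← pow_mul, mul_comm]⟩

theorem mul_pow_mem {A : Subgroup Γ} (hn : T ≤ normalizer (A : Set Γ))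
    (hc : ∀ x ∈ T, ∀ y ∈ T, ⁅x, y⁆ ∈ A) {x y : Γ} (hx : x ∈ T) (hy : y ∈ T) (n : ℕ) :
    ∃ a ∈ A, (x * y) ^ n = a * x ^ n * y ^ n := by
  induction n with
  | zero => exact ⟨1, A.one_mem, by simp⟩
  | succ n ih =>
    obtain ⟨a, ha, e⟩ := ih
    refine ⟨a * (x ^ n * ⁅y ^ n, x⁆ * (x ^ n)⁻¹), A.mul_mem ha
      (nor_iff.1 hn _ (pow_mem hx n) _ (hc _ (pow_mem hy n) _ hx)), ?_⟩
    rw [pow_succ, e, commutatorElement_def, pow_succ, pow_succ]; group

end grp

variable {K V Γ : Type} [Field K] [AddCommGroup V] [Module K V] [Group Γ] [DistribMulAction Γ V]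
  [FaithfulSMul Γ V] {sc : Kˣ →* Γ} {G H T S : Subgroup Γ}

variable (V sc G) in
/-- The candidates for `S`. -/
structure Ok (T : Subgroup Γ) : Prop where
  sc_le : sc.range ≤ T
  le : T ≤ G
  lin : ∀ x ∈ T, Lin K V x
  nor : G ≤ normalizer (T : Set Γ)
  comm : ∀ x ∈ T, ∀ y ∈ T, ⁅x, y⁆ ∈ sc.range

theorem sc_cen (s : KS V sc G H) (h : ∀ x ∈ T, Lin K V x) : sc.range ≤ centralizer (T : Set Γ) := by
  rintro _ ⟨c, rfl⟩
  exact mem_centralizer_iff.2 fun x hx => s.comm_sc (h x hx) c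

theorem Ok.cls (s : KS V sc G H) (ma : MA sc G) (h : Ok V sc G T) : Cls V sc T :=
  ⟨h.sc_le, h.lin, h.comm, fun _ hx c => ma (T ⊓ centralizer (T : Set Γ)) (inf_le_left.trans h.le)
    (nor_cen h.nor h.nor) (fun a ha _ hb => mem_centralizer_iff.1 hb.2 a ha.1)
    (le_inf h.sc_le (sc_cen s h.lin)) ⟨hx, mem_centralizer_iff.2 fun y hy => (c y hy).symm⟩⟩

theorem Ok.sub (h : Ok V sc G S) (h1 : sc.range ≤ T) (h2 : T ≤ S)
    (h3 : G ≤ normalizer (T : Set Γ)) : Ok V sc G T :=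
  ⟨h1, h2.trans h.le, fun x hx => h.lin x (h2 hx), h3, fun x hx y hy => h.comm x (h2 hx) y (h2 hy)⟩

theorem ok_sc (s : KS V sc G H) : Ok V sc G sc.range :=
  ⟨le_rfl, s.scG, by rintro _ ⟨c, rfl⟩; exact s.lin_sc c, s.le.trans s.nor_sc,
    fun x hx y hy => by
      rw [commutatorElement_def]
      exact mul_mem (mul_mem (mul_mem hx hy) (inv_mem hx)) (inv_mem hy)⟩

theorem cen_le [Finite Γ] (s : KS V sc G H) (ma : MA sc G) (m : Maximal (Ok V sc G) S) (B : Subgroup Γ) :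
    B ≤ G ⊓ centralizer (S : Set Γ) → G ≤ normalizer (B : Set Γ) → B ≤ sc.range := by
  induction B using WellFoundedLT.induction with
  | ind B ih =>
  intro hB nB
  by_cases b0 : B = ⊥
  · rw [b0]; exact bot_le
  have lt := comm_lt (solv_of_le s.sol (hB.trans inf_le_left)) b0
  have c := commutator_le.1 (ih _ lt (lt.le.trans hB) (nor_comm nB))
  have cm : ∀ b ∈ B, ∀ x ∈ S, x * b = b * x := fun b hb => mem_centralizer_iff.1 (hB hb).2
  have dec : ∀ y ∈ B ⊔ S, ∃ b ∈ B, ∃ x ∈ S, b * x = y := fun y hy => by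
    rw [← SetLike.mem_coe, coe_mul_of_left_le_normalizer_right _ _
      ((hB.trans inf_le_left).trans m.1.nor)] at hy
    exact hy
  have ok : Ok V sc G (B ⊔ S) := by
    refine ⟨m.1.sc_le.trans le_sup_right, sup_le (hB.trans inf_le_left) m.1.le, fun y hy => ?_,
      nor_sup nB m.1.nor, fun y hy y' hy' => ?_⟩
    · obtain ⟨b, hb, x, hx, rfl⟩ := dec y hy
      exact (s.lin_of_comm fun c => (cm b hb _ (m.1.sc_le ⟨c, rfl⟩)).symm).mul (m.1.lin x hx)
    · obtain ⟨b, hb, x, hx, rfl⟩ := dec y hy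
      obtain ⟨b', hb', x', hx', rfl⟩ := dec y' hy'
      have e : ⁅b * x, b' * x'⁆ = ⁅b, b'⁆ * ⁅x, x'⁆ := by
        have a1 := cm b' hb' x hx
        have a2 := cm (b'⁻¹ * b⁻¹ * b') (mul_mem (mul_mem (inv_mem hb') (inv_mem hb)) hb')
        have a3 := cm _ (mul_mem (inv_mem hb) (inv_mem hb')) _
          (mul_mem (mul_mem hx hx') (inv_mem hx))
        have a4 := cm _ (inv_mem hb') _ (inv_mem hx')
        simp only [commutatorElement_def, mul_inv_rev]
        calc b * x * (b' * x') * (x⁻¹ * b⁻¹) * (x'⁻¹ * b'⁻¹)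
            = b * (x * b') * x' * x⁻¹ * b⁻¹ * (x'⁻¹ * b'⁻¹) := by group
          _ = b * b' * (x * x' * x⁻¹ * (b⁻¹ * b'⁻¹)) * x'⁻¹ := by rw [a1, a4]; group
          _ = _ := by rw [a3]; group
      rw [e]
      exact mul_mem (c b hb b' hb') (m.1.comm x hx x' hx')
  have le : B ≤ S := le_sup_left.trans (m.2 ok le_sup_right)
  exact fun b hb => (m.1.cls s ma).cen b (le hb) fun y hy => (cm b hb y hy).symm

theorem ex_piece [Finite Γ] (s : KS V sc G H) (ma : MA sc G) (h : Ok V sc G T)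
    (ne : ¬ T ≤ sc.range) : ∃ E ≤ T, Piece V sc G E := by
  obtain ⟨E, le, m⟩ := Finite.exists_le_minimal (p := fun E => Ok V sc G E ∧ ¬ E ≤ sc.range) ⟨h, ne⟩
  have o := m.1.1
  have irr : ∀ U : Subgroup Γ, sc.range ≤ U → U ≤ E → G ≤ normalizer (U : Set Γ) →
      U = sc.range ∨ U = E := fun U a b c => by
    by_cases d : U ≤ sc.range
    · exact .inl (le_antisymm d a)
    · exact .inr (le_antisymm b (m.2 ⟨o.sub a b c, d⟩ b))
  refine ⟨E, le, o.le, o.nor, o.sc_le, m.1.2, o.lin, o.comm, (o.cls s ma).cen, ?_, irr⟩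
  obtain ⟨x, hx, hx'⟩ := SetLike.not_le_iff_exists.1 m.1.2
  obtain ⟨r, k, hr, a, b⟩ := ex_prime hx' (orderOf x) (orderOf_pos x).ne'
    (by rw [pow_orderOf_eq_one]; exact one_mem _)
  have nA := s.le.trans s.nor_sc
  let U : Subgroup Γ :=
    { carrier := {y | y ∈ E ∧ y ^ r ∈ sc.range}
      one_mem' := ⟨one_mem _, by rw [one_pow]; exact one_mem _⟩
      mul_mem' := fun {y z} hy hz => ⟨mul_mem hy.1 hz.1, by
        obtain ⟨a, ha, e⟩ := mul_pow_mem (o.le.trans nA) o.comm hy.1 hz.1 r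
        rw [e]
        exact mul_mem (mul_mem ha hy.2) hz.2⟩
      inv_mem' := fun {y} hy => ⟨inv_mem hy.1, by rw [inv_pow]; exact inv_mem hy.2⟩ }
  rcases irr U (fun y hy => ⟨o.sc_le hy, pow_mem hy r⟩) (fun y hy => hy.1)
    (nor_iff.2 fun g hg y hy => ⟨nor_iff.1 o.nor g hg y hy.1, by
      rw [conj_pow]; exact nor_iff.1 nA g hg _ hy.2⟩) with e | e
  · exact absurd (e ▸ (⟨pow_mem hx k, b⟩ : x ^ k ∈ U)) a
  · exact ⟨r, hr, fun y hy => (e.ge hy).2⟩

theorem jobSTR (inn : JobInn) : JobSTR := by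
  intro K V Γ _ _ _ _ _ _ _ _ _ _ sc G H s ma
  obtain ⟨S, -, m⟩ := Finite.exists_le_maximal (p := Ok V sc G) (ok_sc s)
  have o := m.1
  refine ⟨S, o.le, o.nor, o.cls s ma, inn K V Γ sc G H s S (o.cls s ma), fun c hc k =>
    cen_le s ma m _ le_rfl (nor_cen o.nor le_normalizer)
      ⟨hc, mem_centralizer_iff.2 fun y hy => (k y hy).symm⟩, ?_⟩
  set S₀ := sc.range ⊔ sSup {E | Piece V sc G E ∧ E ≤ S} with hS
  have o0 : Ok V sc G S₀ := o.sub le_sup_left (sup_le o.sc_le (sSup_le fun E hE => hE.2))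
    (nor_sup (s.le.trans s.nor_sc) (nor_sSup fun E hE => hE.1.nor))
  have le0 : S₀ ≤ S := sup_le o.sc_le (sSup_le fun E hE => hE.2)
  have c0 : S ⊓ centralizer (S₀ : Set Γ) ≤ sc.range := by
    by_contra ne
    obtain ⟨E, le, pE⟩ := ex_piece s ma (o.sub (le_inf o.sc_le (sc_cen s o0.lin)) inf_le_left
      (nor_cen o0.nor o.nor)) ne
    have : E ≤ S₀ := le_sup_of_le_right (le_sSup ⟨pE, le.trans inf_le_left⟩)
    exact pE.ne fun x hx => (o0.cls s ma).cen x (this hx) fun y hy =>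
      (mem_centralizer_iff.1 (le hx).2 y hy).symm
  refine fun x hx => (sup_le_sup_left (sSup_le_sSup fun E hE => hE.1) _ : S₀ ≤ _) ?_
  obtain ⟨y, hy, k⟩ := (inn K V Γ sc G H s S₀ (o0.cls s ma)).hom x (o.lin x hx)
    fun y hy => o.comm x hx y (le0 hy)
  have : y⁻¹ * x ∈ S₀ := o0.sc_le (c0 ⟨S.mul_mem (S.inv_mem (le0 hy)) hx,
    mem_centralizer_iff.2 fun z hz => (k z hz).symm⟩)
  exact (S₀.mul_mem_cancel_left (inv_mem hy)).1 this

end H10.CLSTR
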