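/- FB tower, slot N2: normal 2-subgroups of the three-point stabiliser. -/
import Cfsg.Agent.H11.FBSpec

set_option autoImplicit false

namespace H10.FbN2

open MulAction Subgroup H11.FB

universe u v

theorem fix_of_odd {R α : Type*} [Group R] [Finite α] [MulAction R α] (hR : IsPGroup 2 R) (S : Set α)
    (hinv : ∀ r : R, ∀ x ∈ S, r • x ∈ S) (hodd : Odd S.ncard) : ∃ x ∈ S, ∀ r : R, r • x = x := by
  have : Fact (Nat.Prime 2) := ⟨Nat.prime_two⟩
  let T : SubMulAction R α := ⟨S, fun r {x} hx => hinv r x hx⟩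
  obtain ⟨x, hx⟩ := hR.nonempty_fixed_point_of_prime_not_dvd_card T (by
    show ¬ 2 ∣ Nat.card S
    rw [Nat.card_coe_set_eq]
    exact hodd.not_two_dvd_nat)
  exact ⟨x, x.2, fun r => congrArg Subtype.val (hx r)⟩

theorem exists_comm_two {G : Type*} [Group G] [Finite G] {R U : Subgroup G} (hR : IsPGroup 2 R)
    (hU : IsPGroup 2 U) (h1 : U ≠ ⊥) (hn : ∀ r ∈ R, ∀ x ∈ U, r * x * r⁻¹ ∈ U) :
    ∃ x ∈ U, x ≠ 1 ∧ ∀ r ∈ R, r * x = x * r := by
  have : Fact (Nat.Prime 2) := ⟨Nat.prime_two⟩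
  let := MulAction.compHom G ((MulAut.conj (G := G)).comp R.subtype)
  have hs : ∀ (r : R) (x : G), (SMul.smul r x) = r * x * (r : G)⁻¹ := fun _ _ => rfl
  obtain ⟨x, hx, hf⟩ := @fix_of_odd R G _ _ this hR ((U : Set G) \ {1}) (fun r x hx =>
    ⟨hn r r.2 x hx.1, fun e => hx.2 (by
      have e' : (r : G) * x * (r : G)⁻¹ = 1 := e
      show x = 1
      calc x = (r : G)⁻¹ * (r * x * (r : G)⁻¹) * r := by group
        _ = 1 := by rw [e']; group)⟩) (by
      obtain ⟨k, hk⟩ := hU.exists_card_eq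
      have h2 : Nat.card U ≠ 1 := fun e => h1 (card_eq_one.1 e)
      have h3 : Even (Nat.card U) := by
        rw [hk] at h2 ⊢
        exact (Nat.even_pow' (by rintro rfl; exact h2 rfl)).2 even_two
      rw [Set.ncard_diff_singleton_of_mem U.one_mem, ← Nat.card_coe_set_eq]
      exact Nat.Even.sub_odd Nat.card_pos h3 odd_one)
  exact ⟨x, hx.1, hx.2, fun r hr => mul_inv_eq_iff_eq_mul.1 (hf ⟨r, hr⟩)⟩

theorem jobN2 : JobN2.{u, v} := by
  intro on G Ω _ _ _ _ _ _ a b c d K H P cx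
  by_contra hc
  obtain ⟨hc1, hc2⟩ := not_or.1 hc
  refine hc1 fun O hO hn hp => ?_
  by_contra h1
  obtain ⟨n1, n2, n3, n4, n5, n6⟩ := cx.hy.ne
  rcases Nat.even_or_odd (Fintype.card Ω) with he | ho
  · obtain ⟨w, hw, hf⟩ := fix_of_odd hp ({a, b, c}ᶜ : Set Ω) (fun r x hx hr => hx (by
        obtain ⟨e1, e2, e3⟩ := mem_X3.1 (hO r.2)
        have i := MulAction.injective (β := Ω) (r : G)
        rcases hr with e | e | e
        · exact Or.inl (i (e.trans e1.symm))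
        · exact Or.inr (Or.inl (i (e.trans e2.symm)))
        · exact Or.inr (Or.inr (i (e.trans e3.symm))))) (by
        rw [Set.ncard_compl, Set.ncard_eq_three.2 ⟨a, b, c, n1, n2, n4, rfl⟩, Nat.card_eq_fintype_card]
        exact Nat.Even.sub_odd (by have := cx.cd.seven; omega) he (by decide))
    have hw' : w ≠ a ∧ w ≠ b ∧ w ≠ c := by simpa [not_or] using hw
    refine h1 (eq_bot_iff.2 fun x hx => ?_)
    refine eq_of_smul_eq_smul (M := G) (α := Ω) fun y => ?_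
    rw [one_smul]
    obtain ⟨e1, e2, e3⟩ := mem_X3.1 (hO hx)
    by_cases ya : y = a
    · rw [ya, e1]
    by_cases yb : y = b
    · rw [yb, e2]
    by_cases yc : y = c
    · rw [yc, e3]
    obtain ⟨g, g1, g2, g3, g4⟩ := cx.hy.exists_smul (x := a) (y := b) (z := c) (w := y)
      ⟨n1, n2, Ne.symm ya, n4, Ne.symm yb, Ne.symm yc⟩ ⟨n1, n2, hw'.1.symm, n4, hw'.2.1.symm, hw'.2.2.symm⟩
    have h2 : (g * x * g⁻¹) • w = w := hf ⟨_, hn g (mem_X3.2 ⟨g1, g2, g3⟩) x hx⟩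
    rw [← g4, mul_smul, inv_smul_smul, mul_smul] at h2
    exact MulAction.injective g h2
  · obtain ⟨z, hz, z1, hzc⟩ := exists_comm_two hp hp h1 fun r hr x hx => hn r (hO hr) x hx
    have hB : Nm (X3 G a b c) (O ⊓ centralizer (O : Set G)) := fun m hm x hx =>
      ⟨hn m hm x hx.1, fun y hy => by
        have h2 : m⁻¹ * y * m⁻¹⁻¹ * x = x * (m⁻¹ * y * m⁻¹⁻¹) := hx.2 _ (hn _ (inv_mem hm) y hy)
        calc y * (m * x * m⁻¹) = m * (m⁻¹ * y * m⁻¹⁻¹ * x) * m⁻¹ := by group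
          _ = m * x * m⁻¹ * y := by rw [h2]; group⟩
    have hPX : P ≤ X3 G a b c := cx.pd.le.trans (cx.hy.fr.Kle.trans inf_le_left)
    obtain ⟨x, hx, x1, hxc⟩ := exists_comm_two (U := O ⊓ centralizer (O : Set G)) cx.pd.pg
      (hp.to_le inf_le_left) (fun e => z1 (mem_bot.1 (e ▸ ⟨hz, hzc⟩))) fun r hr => hB r (hPX hr)
    refine hc2 (on cx (inf_le_left.trans hO) hB (fun x hx y hy => hy.2 x hx.1)
      ⟨x, hx, x1, d, n3.symm, n5.symm, n6.symm, ?_⟩)
    refine cx.ph1.fixC (cx.ph2.od7 ho) x (fun r hr => (hxc r hr).symm) d fun r => ?_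
    exact (mem_L4.1 (cx.hy.fr.Kle (cx.pd.le r.2))).2.2.2

end H10.FbN2
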