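/- Row S4841, characteristic two: groups acting on an `𝔽₂`-space with all elements of odd order
fixed point free.  Basic facts. -/
import Cfsg.Agent.H98.Sylow
import Cfsg.Agent.H98.Core
import Cfsg.Agent.S0200
import Cfsg.Agent.H61.PCTop

set_option autoImplicit false

namespace H10.G2

open Cfsg Subgroup

universe u v

abbrev En (V : Type v) [AddCommGroup V] [Module (ZMod 2) V] := Module.End (ZMod 2) V

variable {K : Type u} [Group K] {V : Type v} [AddCommGroup V] [Module (ZMod 2) V]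

theorem vv (v : V) : v + v = 0 := by
  rw [← two_smul (ZMod 2) v, show (2 : ZMod 2) = 0 from rfl, zero_smul]

theorem xx (x : En V) : x + x = 0 := by ext v; simp [vv]

theorem two0 : (2 : En V) = 0 := by rw [← one_add_one_eq_two, xx]

theorem add_eq_zero_iff' {v w : V} : v + w = 0 ↔ v = w :=
  ⟨fun h => by rw [← add_zero v, ← vv w, ← add_assoc, h, zero_add], fun h => h ▸ vv v⟩

theorem add_eq_zero_iffE {v w : En V} : v + w = 0 ↔ v = w :=
  ⟨fun h => by rw [← add_zero v, ← xx w, ← add_assoc, h, zero_add], fun h => h ▸ xx v⟩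

theorem odd_cast {n : ℕ} (h : Odd n) : (n : En V) = 1 := by
  obtain ⟨k, rfl⟩ := h
  push_cast; rw [two0]; simp

theorem frob {a b : En V} (h : Commute a b) (k : ℕ) :
    (a + b) ^ 2 ^ k = a ^ 2 ^ k + b ^ 2 ^ k := by
  induction k with
  | zero => simp
  | succ k ih =>
    have := (h.pow_pow (2 ^ k) (2 ^ k)).eq
    rw [pow_succ, pow_mul, ih, pow_mul, pow_mul, sq, sq, sq]
    linear_combination (norm := noncomm_ring) this + xx (b ^ 2 ^ k * a ^ 2 ^ k)

theorem nil_step {ν : En V} {M : ℕ} (h : ∀ v, (ν ^ (M + 1)) v = 0 → (ν ^ M) v = 0) (i : ℕ)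
    (h0 : ν ^ (M + i) = 0) : ν ^ M = 0 := by
  induction i with
  | zero => exact h0
  | succ i ih =>
    refine ih (LinearMap.ext fun v => ?_)
    rw [pow_add, Module.End.mul_apply]
    refine h _ ?_
    rw [← Module.End.mul_apply, ← pow_add, show M + 1 + i = M + (i + 1) by ring, h0]; rfl

/-- every element fixing a nonzero vector is a `2`-element -/
structure Fp (ρ : K →* En V) : Prop where
  nt : Nontrivial V
  two : ∀ g v, v ≠ 0 → ρ g v = v → ∃ k, g ^ 2 ^ k = 1

structure Hy (ρ : K →* En V) : Prop extends Fp ρ where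
  core : pCore 2 K = ⊥

variable {ρ : K →* En V}

theorem eq_one_of_odd {g : K} {n k : ℕ} (hn : Odd n) (h1 : g ^ n = 1) (h2 : g ^ 2 ^ k = 1) :
    g = 1 := by
  have := pow_gcd_eq_one.2 ⟨h1, h2⟩
  rwa [show Nat.gcd n (2 ^ k) = 1 from (Nat.coprime_two_right.2 hn).pow_right k, pow_one] at this

theorem Fp.comp (h : Fp ρ) {J : Type*} [Group J] (f : J →* K) (hf : Function.Injective f) :
    Fp (ρ.comp f) :=
  ⟨h.nt, fun g v hv e => (h.two (f g) v hv e).imp fun k hk => hf (by rw [map_pow, hk, map_one])⟩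

theorem Fp.one_ne (h : Fp ρ) : (1 : En V) ≠ 0 := by
  have := h.nt
  exact one_ne_zero

theorem Fp.fpf (h : Fp ρ) {g : K} {n : ℕ} (hn : Odd n) (h1 : g ^ n = 1) (g1 : g ≠ 1) {v : V}
    (e : ρ g v = v) : v = 0 := by
  by_contra hv
  obtain ⟨k, hk⟩ := h.two g v hv e
  exact g1 (eq_one_of_odd hn h1 hk)

theorem Fp.norm (h : Fp ρ) {g : K} {n : ℕ} (hn : Odd n) (h1 : g ^ n = 1) (g1 : g ≠ 1) :
    ∑ i ∈ Finset.range n, ρ g ^ i = 0 := by
  refine LinearMap.ext fun v => h.fpf hn h1 g1 ?_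
  have := mul_geom_sum (ρ g) n
  rw [← map_pow, h1, map_one, sub_self, sub_mul, one_mul, sub_eq_zero] at this
  rw [← Module.End.mul_apply, this]

theorem Fp.quad (h : Fp ρ) {x : K} (hx : orderOf x = 3) : ρ x * ρ x + ρ x + 1 = 0 := by
  have := h.norm (n := 3) (by decide) (hx ▸ pow_orderOf_eq_one x) (fun e => by simp [e] at hx)
  simp only [Finset.sum_range_succ, Finset.range_zero, Finset.sum_empty] at this
  rw [← this]; noncomm_ring

theorem Fp.inv3 (h : Fp ρ) {x : K} (hx : orderOf x = 3) : ρ x⁻¹ = ρ x + 1 := by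
  have h1 : x⁻¹ = x * x := by
    rw [inv_eq_iff_mul_eq_one, ← mul_assoc, ← pow_three', ← hx, pow_orderOf_eq_one]
  rw [h1, map_mul]
  linear_combination (norm := noncomm_ring) h.quad hx - xx (ρ x) - xx (1 : En V)

theorem pow_ne_one_of_lt {b : K} {r i : ℕ} (hr : r.Prime) (hb : b ^ r = 1) (b1 : b ≠ 1)
    (i0 : i ≠ 0) (hi : i < r) : b ^ i ≠ 1 := by
  have := Fact.mk hr
  have := orderOf_eq_prime hb b1
  exact pow_ne_one_of_lt_orderOf i0 (this ▸ hi)

/-- no subgroup `r × r` for odd primes `r` -/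
theorem Fp.no_rr (h : Fp ρ) {a b : K} {r : ℕ} (hr : r.Prime) (r2 : r ≠ 2) (ha : a ^ r = 1)
    (hb : b ^ r = 1) (b1 : b ≠ 1) (hc : Commute a b) : a ∈ zpowers b := by
  by_contra hn
  have ho := hr.odd_of_ne_two r2
  have h1 : ∀ j ∈ Finset.range r, ∑ i ∈ Finset.range r, ρ (a * b ^ j) ^ i = 0 := fun j _ =>
    h.norm ho (by rw [(hc.pow_right j).mul_pow, ha, ← pow_mul, mul_comm j, pow_mul, hb]; simp)
      fun e => hn (by rw [eq_inv_of_mul_eq_one_left e]; exact inv_mem (npow_mem_zpowers b j))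
  have h2 := Finset.sum_eq_zero h1
  rw [Finset.sum_comm, Finset.sum_eq_single 0] at h2
  · simp only [pow_zero, Finset.sum_const, Finset.card_range, nsmul_eq_mul, mul_one] at h2
    exact h.one_ne ((odd_cast ho).symm.trans h2)
  · intro i hi i0
    have : ∀ j ∈ Finset.range r, ρ (a * b ^ j) ^ i = ρ a ^ i * ρ (b ^ i) ^ j := fun j _ => by
      rw [← map_pow, ← map_pow, ← map_pow, ← map_mul, (hc.pow_right j).mul_pow, ← pow_mul,
        ← pow_mul, mul_comm j]
    rw [Finset.sum_congr rfl this, ← Finset.mul_sum, h.norm ho (by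
      rw [← pow_mul, mul_comm, pow_mul, hb, one_pow])
      (pow_ne_one_of_lt hr hb b1 i0 (Finset.mem_range.1 hi)), mul_zero]
  · intro h0; exact (h0 (Finset.mem_range.2 hr.pos)).elim

theorem mem_zpowers3 {x y : K} (hx : orderOf x = 3) (hy : y ∈ zpowers x) (y1 : y ≠ 1) :
    y = x ∨ y = x⁻¹ := by
  have h1 : x⁻¹ = x ^ 2 := by
    rw [inv_eq_iff_mul_eq_one, ← pow_succ', show 2 + 1 = orderOf x from hx.symm,
      pow_orderOf_eq_one]
  have fin : IsOfFinOrder x := orderOf_pos_iff.1 (by omega)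
  rw [← fin.mem_powers_iff_mem_zpowers] at hy
  obtain ⟨n, rfl⟩ := hy
  simp only at y1 ⊢
  rw [← pow_mod_orderOf, hx] at y1 ⊢
  have : n % 3 < 3 := Nat.mod_lt _ (by norm_num)
  rw [h1]
  interval_cases n % 3 <;> simp_all

theorem cube {x : K} (hx : orderOf x = 3) : x ^ 3 = 1 := hx ▸ pow_orderOf_eq_one x

theorem ne_one3 {x : K} (hx : orderOf x = 3) : x ≠ 1 := fun e => by simp [e] at hx

theorem Fp.comm3 (h : Fp ρ) {x y : K} (hx : orderOf x = 3) (hy : orderOf y = 3)
    (hc : Commute y x) : y = x ∨ y = x⁻¹ :=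
  mem_zpowers3 hx (h.no_rr Nat.prime_three (by norm_num) (cube hy) (cube hx) (ne_one3 hx) hc)
    (ne_one3 hy)

/-- an element of order three normalizing a group of odd prime order centralizes it -/
theorem Fp.three_r (h : Fp ρ) {x y : K} {r : ℕ} (hr : r.Prime) (r2 : r ≠ 2) (hx : orderOf x = 3)
    (hy : y ^ r = 1) (hn : x ∈ normalizer (zpowers y : Set K)) : Commute x y := by
  by_contra hc
  have ho := hr.odd_of_ne_two r2
  have key : ∀ z ∈ normalizer (zpowers y : Set K), ¬ Commute z y →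
      ∑ j ∈ Finset.range r, ρ (y ^ j * z * (y ^ j)⁻¹) = 0 := fun z hz hzc => by
    obtain ⟨n, hn'⟩ : z * y⁻¹ * z⁻¹ ∈ zpowers y := (hz _).1 (inv_mem (mem_zpowers y))
    simp only at hn'
    have c1 : Commute y (z * y⁻¹ * z⁻¹) := hn' ▸ (Commute.refl y).zpow_right n
    have : ∀ j ∈ Finset.range r, ρ (y ^ j * z * (y ^ j)⁻¹) =
        ρ (y * (z * y⁻¹ * z⁻¹)) ^ j * ρ z := fun j _ => by
      rw [← map_pow, ← map_mul, c1.mul_pow, conj_pow]; congr 1; group
    rw [Finset.sum_congr rfl this, ← Finset.sum_mul, h.norm ho (by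
      rw [c1.mul_pow, conj_pow, inv_pow, hy]; simp) (fun e => hzc ?_), zero_mul]
    calc z * y = (y * (z * y⁻¹ * z⁻¹)) * (z * y) := by rw [e, one_mul]
      _ = y * z := by group
  have h1 : ∀ j ∈ Finset.range r,
      ρ (y ^ j * x⁻¹ * (y ^ j)⁻¹) = ρ (y ^ j * x * (y ^ j)⁻¹) + 1 := fun j _ => by
    rw [← h.inv3 (x := y ^ j * x * (y ^ j)⁻¹) (by
      rw [← MulAut.conj_apply, MulEquiv.orderOf_eq, hx])]
    congr 1; group
  have h2 := key x⁻¹ (inv_mem hn) fun e => hc (by simpa using e.inv_left)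
  rw [Finset.sum_congr rfl h1, Finset.sum_add_distrib, key x hn hc] at h2
  simp only [Finset.sum_const, Finset.card_range, nsmul_eq_mul, mul_one, zero_add] at h2
  exact h.one_ne ((odd_cast ho).symm.trans h2)

variable [Finite K]

theorem Fp.cyclic (h : Fp ρ) {r : ℕ} (hr : r.Prime) (r2 : r ≠ 2) {P : Subgroup K}
    (hP : IsPGroup r P) : IsCyclic P := by
  have := Fact.mk hr
  refine H61.PC.isCyclic_of_not_rank r2 hP ?_
  rintro ⟨A, hA, hA', hc⟩
  have h1 : A ≠ ⊥ := fun e => by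
    rw [e, card_bot] at hc
    exact absurd hc (not_le.2 (Nat.one_lt_pow two_ne_zero hr.one_lt))
  obtain ⟨⟨b, hb⟩, b1⟩ := (nontrivial_iff_exists_ne (1 : A)).1 ((nontrivial_iff_ne_bot A).2 h1)
  replace b1 : b ≠ 1 := fun e => b1 (Subtype.ext e)
  have h2 : A ≤ zpowers b := fun a ha =>
    (h.comp P.subtype P.subtype_injective).no_rr hr r2 (hA' a ha) (hA' b hb) b1
      (congrArg Subtype.val (hA.1.1 ⟨a, ha⟩ ⟨b, hb⟩))
  have h3 := card_le_of_le h2
  rw [Nat.card_zpowers, orderOf_eq_prime (hA' b hb) b1] at h3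
  nlinarith [hr.one_lt]

/-- all subgroups of order three of a subgroup are conjugate -/
theorem Fp.conj3 (h : Fp ρ) {J : Subgroup K} {x y : K} (hx : orderOf x = 3) (hy : orderOf y = 3)
    (xJ : x ∈ J) (yJ : y ∈ J) : ∃ j ∈ J, j * x * j⁻¹ = y ∨ j * x * j⁻¹ = y⁻¹ := by
  have := Fact.mk Nat.prime_three
  obtain ⟨T, hT, hyT⟩ := H98.exists_isSyl_le (p := 3) (H98.isPGroup_zpowers (x := y) (k := 1)
    (by simpa using cube hy)) (zpowers_le.2 yJ)
  obtain ⟨j, hj, hjT⟩ := hT.exists_cj_le (H98.isPGroup_zpowers (x := x) (k := 1)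
    (by simpa using cube hx)) (zpowers_le.2 xJ)
  have h1 : j * x * j⁻¹ ∈ T := hjT (H98.conj_mem_cj (mem_zpowers x))
  have := h.cyclic Nat.prime_three (by norm_num) hT.isPGroup
  exact ⟨j, hj, h.comm3 hy (by rw [← MulAut.conj_apply, MulEquiv.orderOf_eq, hx])
    (congrArg Subtype.val (IsCyclic.isMulCommutative.1.1 (⟨_, h1⟩ : T) ⟨y, hyT (mem_zpowers y)⟩))⟩

/-- no central element of odd prime order in a group generated by elements of order prime to it -/
theorem Fp.not_central (h : Fp ρ) {r : ℕ} (hr : r.Prime) (r2 : r ≠ 2) {y : K} (hy : y ^ r = 1)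
    (hc : y ∈ center K) (hgen : ∀ (A : Type u) [CommGroup A] (f : K →* A), IsPGroup r A →
      ∀ g, f g = 1) : y = 1 := by
  have := Fact.mk hr
  obtain ⟨P, hP⟩ := (H98.isPGroup_zpowers (p := r) (x := y) (k := 1) (by simpa)).exists_le_sylow
  have := h.cyclic hr r2 P.isPGroup'
  let _ : CommGroup P := IsCyclic.commGroup
  have h1 := MonoidHom.transfer_eq_pow (MonoidHom.id (P : Subgroup K)) y fun k g _ => by
    rw [mul_assoc, ← mem_center_iff.1 (pow_mem hc k) g]; group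
  rw [hgen P _ P.isPGroup' y] at h1
  have h2 : y ^ (P : Subgroup K).index = 1 := (congrArg Subtype.val h1).symm
  have := pow_gcd_eq_one.2 ⟨hy, h2⟩
  rwa [show Nat.gcd r (P : Subgroup K).index = 1 from
    (Nat.Prime.coprime_iff_not_dvd hr).2 P.not_dvd_index, pow_one] at this

omit [Finite K] in
theorem fixed [Finite V] {P : Subgroup K} (hP : IsPGroup 2 P) {U : Submodule (ZMod 2) V}
    (hU : U ≠ ⊥) (inv : ∀ g ∈ P, ∀ v ∈ U, ρ g v ∈ U) : ∃ v ∈ U, v ≠ 0 ∧ ∀ g ∈ P, ρ g v = v := by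
  let _ : MulAction P U :=
    { smul := fun g v => ⟨ρ g v, inv g g.2 v v.2⟩
      one_smul := fun v => Subtype.ext (by change ρ 1 v = v; simp)
      mul_smul := fun a b v => Subtype.ext (by change ρ (a * b) v = ρ a (ρ b v); simp) }
  obtain ⟨w, hw, w0⟩ := (Submodule.ne_bot_iff U).1 hU
  have h2 : 2 ∣ Nat.card U := by
    have : addOrderOf (⟨w, hw⟩ : U) = 2 := addOrderOf_eq_prime
      (by rw [two_nsmul]; exact vv _) fun e => w0 (congrArg Subtype.val e)
    have h3 := addOrderOf_dvd_natCard (⟨w, hw⟩ : U)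
    rwa [this] at h3
  obtain ⟨b, hb, b0⟩ := hP.exists_fixed_point_of_prime_dvd_card_of_fixed_point U h2 (a := 0)
    fun g => Subtype.ext (map_zero (ρ g))
  exact ⟨b, b.2, fun e => b0 (Subtype.ext e.symm), fun g hg => congrArg Subtype.val (hb ⟨g, hg⟩)⟩

end H10.G2
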