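/- O84 tower, slot FS: `F*` of a group between `J` and `N(J)`. -/
import Cfsg.Agent.H89.AlmostSimple
import Cfsg.Agent.H36.O84Spec

set_option autoImplicit false
open Cfsg

namespace H10.O84FS

theorem fs {Γ : Type*} [Group Γ] [Finite Γ] {J H : Subgroup Γ} (hJ : J ≤ H)
    (hn : H ≤ Subgroup.normalizer (J : Set Γ)) (hs : IsSimpleGroup J) (nc : ¬ ∀ x y : J, x * y = y * x)
    (hc : Subgroup.centralizer (J : Set Γ) = ⊥) : generalizedFittingSubgroup H = J.subgroupOf H := by
  have e := Subgroup.subgroupOfEquivOfLe hJ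
  have : (J.subgroupOf H).Normal := (Subgroup.normal_subgroupOf_iff_le_normalizer hJ).2 hn
  have : IsSimpleGroup (J.subgroupOf H) := e.isSimpleGroup
  refine H89.fstar_eq_of_simple _ (fun h => nc fun a b => ?_) ?_
  · apply e.symm.injective
    rw [map_mul, map_mul]
    exact h.is_comm.comm _ _
  · rw [eq_bot_iff]
    intro x hx
    have : (x : Γ) ∈ Subgroup.centralizer (J : Set Γ) := fun j hj =>
      congrArg Subtype.val (hx ⟨j, hJ hj⟩ hj)
    rw [hc] at this
    exact Subtype.ext this

theorem jobFS : H36.O84.JobFS := fun _ _ _ _ _ hs nc hc hJ hn => fs hJ hn hs nc hc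

end H10.O84FS
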