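import Cfsg.Agent.S0922
import Cfsg.Agent.H36.PrinLoc
import Cfsg.Agent.H37.Kernel
import Cfsg.Agent.H41.Subsec
import Cfsg.Agent.H41.BlockOrth
import Cfsg.Agent.H35.PReg

/-! Principal blocks for two primes that meet trivially: the class sizes of `p`-elements are
prime to `q`. -/

set_option autoImplicit false

namespace H10.PQ

open Cfsg H28 H35 H37
open scoped ComplexConjugate

variable {G : Type*} [Group G]

/-- A class function is evaluated at `x` times the principal block idempotent of `C(x)`. -/
theorem eval [Fintype G] {p : ℕ} {M : Ideal AlgInt} (hM : IsPModular p M) {x : G}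
    (hx : ∃ k : ℕ, orderOf x = p ^ k) [Fintype (Subgroup.centralizer ({x} : Set G))]
    {χ : IrrCharacter G} (hχ : χ ∉ principalBlock M G) :
    ∑ k : Subgroup.centralizer ({x} : Set G),
      blockCoeff (principalBlock M (Subgroup.centralizer ({x} : Set G))) k *
        (χ : G → ℂ) ((k : G) * x) = 0 := by
  have := hM.2.1
  have : Fact p.Prime := ⟨hM.1⟩
  have h1 : IsInducedBlock M (Subgroup.centralizer ({x} : Set G))
      (principalBlock M (Subgroup.centralizer ({x} : Set G))) (principalBlock M G) := by
    have h := H36.setOf_induced_principal hM (H41.isSec_centralizer hx)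
    exact (Set.ext_iff.1 h _).2 rfl
  have h2 := Cfsg.Agent.S0922.result p M hM _ _ _ h1
    ⟨x, Subgroup.mem_centralizer_singleton_iff.2 rfl⟩ (fun z hz => by
      rw [H41.isPPart_unique hM.1 hz (H41.isPPart_self hM.1 hx)]) χ hχ
  rwa [finsum_eq_sum_of_fintype] at h2

theorem not_dvd_index [Finite G] {p q : ℕ} {M N : Ideal AlgInt} (hM : IsPModular p M)
    (hN : IsPModular q N) (h : ∀ χ : IrrCharacter G, χ ∈ principalBlock M G →
      χ ∈ principalBlock N G → (χ : G → ℂ) = fun _ => 1) {x : G}
    (hx : ∃ k : ℕ, orderOf x = p ^ k) : ¬ q ∣ (Subgroup.centralizer ({x} : Set G)).index := by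
  classical
  have := hM.2.1
  have := hN.2.1
  have := Fintype.ofFinite G
  set C := Subgroup.centralizer ({x} : Set G) with hC
  set b := principalBlock M C
  let o : IrrCharacter G := ⟨fun _ => 1, isIrrCharacter_one⟩
  have ho : o ∈ principalBlock N G := one_mem_principalBlock
  have hB : IsPBlock N (principalBlock N G) := isPBlock_principalBlock
  have hRu : ¬ MemLocalIdeal N (rsum q (o : G → ℂ) o / (o : G → ℂ) 1) :=
    not_P_of_height_zero hN hB ho ho
      (blockHeight_of_not_dvd _ (by rw [H37.charDegree_one]; simpa using hN.1.one_lt.ne'))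
  let f : G → ℂ := rc q (o : G → ℂ)
  have hf : IsClassFunction G f := rc_isClassFunction q o.2.isClassFunction
  have hin : ∀ χ : IrrCharacter G, classInner f χ =
      (Nat.card G : ℂ)⁻¹ * conj (rsum q (o : G → ℂ) χ) := fun χ => by
    simp only [classInner, rsum, map_sum, map_mul, f, rc_eq, o]
    congr 1
    refine Finset.sum_congr rfl fun g _ => ?_
    split_ifs <;> simp
  have h1 : ∑ k : C, blockCoeff b k * f ((k : G) * x) = classInner f o := by
    simp only [fun k : C => hf.apply_eq_sum_irr ((k : G) * x), Finset.mul_sum]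
    rw [Finset.sum_comm, Finset.sum_eq_single o]
    · have h2 := H41.sum_blockCoeff_mul_irr b ⟨fun _ => 1, isIrrCharacter_one⟩ 1
      rw [if_pos one_mem_principalBlock] at h2
      simp only [mul_one] at h2
      simp only [o, mul_one, ← Finset.sum_mul, h2, one_mul]
    · intro χ _ hχ
      simp only [mul_left_comm _ (classInner f χ), ← Finset.mul_sum]
      by_cases h3 : χ ∈ principalBlock M G
      · have h4 : χ ∉ principalBlock N G := fun h4 => hχ (Subtype.ext (h χ h3 h4))
        rw [hin, rsum_eq_zero_of_not_mem hN hB ho h4]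
        simp
      · rw [eval hM hx h3, mul_zero]
    · simp
  intro hq
  apply hRu
  have hA : (Nat.card C : ℂ) * ∑ k : C, blockCoeff b k * f ((k : G) * x) ∈ S N := by
    rw [Finset.mul_sum]
    refine sum_mem fun k _ => ?_
    rw [← mul_assoc]
    refine mul_mem ?_ (rc_mem_S q (fun _ => one_mem _) _)
    have hc : (Nat.card C : ℂ) ≠ 0 := by exact_mod_cast Nat.card_pos.ne'
    rw [H41.blockCoeff_eq_sum (Set.toFinite b), ← mul_assoc, mul_inv_cancel₀ hc, one_mul]
    refine sum_mem fun ψ _ => mul_mem (char_mem_S ψ.2.isCharacter 1) ?_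
    rw [← ψ.2.isCharacter.apply_inv]
    exact char_mem_S ψ.2.isCharacter _
  have h5 := P_mul_right ((P_natCast_iff hN).2 hq) hA
  convert h5 using 1
  have hc : (Nat.card G : ℂ) ≠ 0 := by exact_mod_cast Nat.card_pos.ne'
  have hr : conj (rsum q (o : G → ℂ) o) = rsum q (o : G → ℂ) o := by
    simp only [rsum, map_sum, map_mul, rc_eq, o]
    refine Finset.sum_congr rfl fun g _ => ?_
    split_ifs <;> simp
  rw [h1, hin, hr, ← mul_assoc, ← Nat.cast_mul, C.index_mul_card, ← mul_assoc,
    mul_inv_cancel₀ hc, one_mul]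
  simp [o]

end H10.PQ
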