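/- R3 tower, slot Dual: two orbits on the non-trivial additive characters. -/
import Cfsg.Agent.H70.R3Spec

set_option autoImplicit false

namespace H10.R3Dual

open MulAction H70.R3

universe u

variable (G V : Type u) [Group G] [AddCommGroup V] [DistribMulAction G V]

/-- the contragredient action -/
@[reducible] def act : MulAction G (AddChar V ℂ) where
  smul g ξ := ξ.compAddMonoidHom (DistribSMul.toAddMonoidHom V g⁻¹)
  one_smul ξ := by
    ext v
    show ξ ((1 : G)⁻¹ • v) = ξ v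
    rw [inv_one, one_smul]
  mul_smul a b ξ := by
    ext v
    show ξ ((a * b)⁻¹ • v) = ξ (b⁻¹ • a⁻¹ • v)
    rw [mul_inv_rev, mul_smul]

variable {G V}

theorem fix_card [Finite V] (g : G) :
    Nat.card {v : V // g • v = v} = Nat.card {ξ : AddChar V ℂ // ∀ v, ξ (g • v) = ξ v} := by
  classical
  have := Fintype.ofFinite V
  rw [Nat.card_eq_fintype_card, Nat.card_eq_fintype_card, Fintype.card_subtype, Fintype.card_subtype]
  let f : V →+ V := DistribSMul.toAddMonoidHom V g - AddMonoidHom.id V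
  have hf : ∀ v, f v = g • v - v := fun _ => rfl
  have h1 : ∑ v : V, ∑ ξ : AddChar V ℂ, ξ (f v) =
      (Finset.univ.filter fun v : V => g • v = v).card * (Fintype.card V : ℂ) := by
    simp_rw [AddChar.sum_apply_eq_ite, hf, sub_eq_zero]
    rw [← Finset.sum_filter, Finset.sum_const, nsmul_eq_mul]
  have h2 : ∑ ξ : AddChar V ℂ, ∑ v : V, ξ (f v) =
      (Finset.univ.filter fun ξ : AddChar V ℂ => ∀ v, ξ (g • v) = ξ v).card * (Fintype.card V : ℂ) := by
    have : ∀ ξ : AddChar V ℂ, ∑ v : V, ξ (f v) = if ∀ v, ξ (g • v) = ξ v then (Fintype.card V : ℂ) else 0 := by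
      intro ξ
      have e := AddChar.sum_eq_ite (ξ.compAddMonoidHom f)
      simp only [AddChar.compAddMonoidHom_apply] at e
      rw [e]
      refine if_congr ⟨fun h v => ?_, fun h => ?_⟩ rfl rfl
      · have h3 : ξ (g • v - v) = 1 := DFunLike.congr_fun h v
        rw [← sub_add_cancel (g • v) v, AddChar.map_add_eq_mul, h3, one_mul]
      · ext v
        show ξ (g • v - v) = 1
        rw [sub_eq_add_neg, AddChar.map_add_eq_mul, h, ← AddChar.map_add_eq_mul, add_neg_cancel,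
          AddChar.map_zero_eq_one]
    simp_rw [this]
    rw [← Finset.sum_filter, Finset.sum_const, nsmul_eq_mul]
  rw [Finset.sum_comm, h2] at h1
  have h0 : (Fintype.card V : ℂ) ≠ 0 := Nat.cast_ne_zero.2 Fintype.card_ne_zero
  exact (Nat.cast_injective (mul_right_cancel₀ h0 h1)).symm

theorem three {p n : ℕ} {v₁ v₂ : V} (h : Two G V p n v₁ v₂) :
    Nat.card (Quotient (orbitRel G V)) = 3 := by
  have e : (Set.univ : Set (Quotient (orbitRel G V))) = {⟦0⟧, ⟦v₁⟧, ⟦v₂⟧} := by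
    refine (Set.eq_univ_of_forall fun q => ?_).symm
    obtain ⟨v, rfl⟩ := q.exists_rep
    by_cases h0 : v = 0
    · exact Or.inl (by rw [h0])
    rcases h.cover v h0 with ⟨g, e⟩ | ⟨g, e⟩
    · exact Or.inr (Or.inl (Quotient.sound ⟨g, e⟩))
    · exact Or.inr (Or.inr (Quotient.sound ⟨g, e⟩))
  rw [← Set.ncard_univ, e]
  refine Set.ncard_eq_three.2 ⟨_, _, _, fun e => ?_, fun e => ?_, fun e => ?_, rfl⟩
  · obtain ⟨g, e⟩ := Quotient.exact e
    exact (smul_ne_zero_iff_ne g).2 h.ne₁ e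
  · obtain ⟨g, e⟩ := Quotient.exact e
    exact (smul_ne_zero_iff_ne g).2 h.ne₂ e
  · obtain ⟨g, e⟩ := Quotient.exact e.symm
    exact h.sep g e

theorem jobDual : JobDual.{u} := by
  intro G V _ _ _ _ _ p n v₁ v₂ h
  classical
  let := act G V
  have := Fintype.ofFinite G
  have := Fintype.ofFinite V
  have hs : ∀ (g : G) (ξ : AddChar V ℂ) (v : V), (g • ξ) v = ξ (g⁻¹ • v) := fun _ _ _ => rfl
  have b1 := sum_card_fixedBy_eq_card_orbits_mul_card_group G V
  have b2 := sum_card_fixedBy_eq_card_orbits_mul_card_group G (AddChar V ℂ)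
  have b3 : ∀ g : G, Fintype.card (fixedBy (AddChar V ℂ) g) = Fintype.card (fixedBy V g) := by
    intro g
    rw [← Nat.card_eq_fintype_card, ← Nat.card_eq_fintype_card, ← fixedBy_inv V g]
    refine Eq.trans ?_ (fix_card (V := V) g⁻¹).symm
    exact Nat.card_congr (Equiv.subtypeEquivRight fun ξ =>
      ⟨fun e v => by rw [← hs, mem_fixedBy.1 e], fun e => mem_fixedBy.2 (by ext v; rw [hs, e])⟩)
  have b4 : Fintype.card (Quotient (orbitRel G (AddChar V ℂ))) = 3 := by
    simp_rw [b3] at b2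
    rw [b2] at b1
    rw [Nat.eq_of_mul_eq_mul_right Fintype.card_pos b1, ← Nat.card_eq_fintype_card, three h]
  obtain ⟨x, y, hxy, e⟩ := Finset.card_eq_two.1 (show
      (Finset.univ.erase (⟦0⟧ : Quotient (orbitRel G (AddChar V ℂ)))).card = 2 by
    rw [Finset.card_erase_of_mem (Finset.mem_univ _), Finset.card_univ, b4])
  have hx : x ≠ ⟦0⟧ := Finset.ne_of_mem_erase (e ▸ Finset.mem_insert_self x {y})
  have hy : y ≠ ⟦0⟧ := Finset.ne_of_mem_erase (e ▸ Finset.mem_insert_of_mem (Finset.mem_singleton_self y))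
  let F : Quotient (orbitRel G (AddChar V ℂ)) → Finset (AddChar V ℂ) := fun q =>
    Finset.univ.filter fun ξ => ⟦ξ⟧ = q
  have hF : ∀ q ξ, ξ ∈ F q ↔ ⟦ξ⟧ = q := fun q ξ => by simp [F]
  have hd : ∀ q, (F q).card ∣ Nat.card G := fun q => by
    obtain ⟨η, rfl⟩ := q.exists_rep
    have : ((F ⟦η⟧ : Finset _) : Set (AddChar V ℂ)) = orbit G η := Set.ext fun ξ => by
      rw [Finset.mem_coe, hF, Quotient.eq]; rfl
    rw [← Set.ncard_coe_finset, this, ← index_stabilizer]
    exact Subgroup.index_dvd_card _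
  have ht : ∀ q, ∀ ξ ∈ F q, ∀ η ∈ F q, ∃ g : G, ∀ v, η v = ξ (g • v) := fun q ξ h1 η h2 => by
    obtain ⟨g, e⟩ := Quotient.exact (((hF _ _).1 h2).trans ((hF _ _).1 h1).symm)
    exact ⟨g⁻¹, fun v => by rw [← hs]; exact (DFunLike.congr_fun e v).symm⟩
  refine ⟨F x, F y, Finset.disjoint_left.2 fun ξ h1 h2 => hxy (((hF _ _).1 h1).symm.trans ((hF _ _).1 h2)),
    fun h1 => hx ((hF _ _).1 h1).symm, fun h1 => hy ((hF _ _).1 h1).symm, fun ξ h0 => ?_, hd x, hd y, ht x, ht y⟩
  have : (⟦ξ⟧ : Quotient (orbitRel G (AddChar V ℂ))) ∈ ({x, y} : Finset _) := by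
    rw [← e]
    refine Finset.mem_erase.2 ⟨fun e0 => h0 ?_, Finset.mem_univ _⟩
    obtain ⟨g, e1⟩ := Quotient.exact e0
    ext v
    exact (DFunLike.congr_fun e1 v).symm
  simpa only [Finset.mem_insert, Finset.mem_singleton, hF] using this

end H10.R3Dual
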