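import Cfsg.Agent.H42.SimXBSpec
import Cfsg.Agent.H57.PslTwist
import Cfsg.Agent.H59.UField

/-! # S3694, tower SIM, slot XB-K1 -/

set_option autoImplicit false

namespace H10.SimK1

open Subgroup Cfsg H98 Matrix H0.Sim H42.SX

theorem jobK1 : JobK1 := by
  intro n F _ _ u q p Θ H Q E c hab
  have mem : ∀ e ∈ E, (e : Mt n F) ∈ sp E := fun e he => Submodule.subset_span ⟨e, he, rfl⟩
  have EG : E ≤ Gam n F u q := c.EQ.trans (c.QH.trans c.HG)
  refine ⟨by simpa using mem 1 (one_mem E), fun a ha b hb => ?_, fun a ha b hb => ?_, ?_,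
    fun hu m hm => ?_⟩
  · induction ha, hb using Submodule.span_induction₂ with
    | mem_mem x y hx hy =>
      obtain ⟨e, he, rfl⟩ := hx
      obtain ⟨e', he', rfl⟩ := hy
      simpa using mem _ (mul_mem he he')
    | zero_left y _ => simp
    | zero_right x _ => simp
    | add_left x y z _ _ _ h1 h2 => rw [add_mul]; exact Submodule.add_mem _ h1 h2
    | add_right x y z _ _ _ h1 h2 => rw [mul_add]; exact Submodule.add_mem _ h1 h2
    | smul_left r x y _ _ h => rw [smul_mul_assoc]; exact Submodule.smul_mem _ r h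
    | smul_right r x y _ _ h => rw [mul_smul_comm]; exact Submodule.smul_mem _ r h
  · induction ha, hb using Submodule.span_induction₂ with
    | mem_mem x y hx hy =>
      obtain ⟨e, he, rfl⟩ := hx
      obtain ⟨e', he', rfl⟩ := hy
      simpa using congrArg Units.val (hab e he e' he')
    | zero_left y _ => simp
    | zero_right x _ => simp
    | add_left x y z _ _ _ h1 h2 => rw [add_mul, mul_add, h1, h2]
    | add_right x y z _ _ _ h1 h2 => rw [add_mul, mul_add, h1, h2]
    | smul_left r x y _ _ h => rw [smul_mul_assoc, mul_smul_comm, h]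
    | smul_right r x y _ _ h => rw [smul_mul_assoc, mul_smul_comm, h]
  · by_contra hn
    push Not at hn
    refine c.ne fun e he => ⟨EG he, mem_center_iff.2 fun g => Units.ext ?_⟩
    obtain ⟨x, hx⟩ := hn _ (mem e he)
    rw [Units.val_mul, Units.val_mul, hx]
    exact (Matrix.scalar_commute x (fun y => Commute.all x y) _).symm.eq
  · subst hu
    have hF : Fintype.card F = q ^ 2 := by simpa using c.par.card
    obtain ⟨σ, hσ⟩ : ∃ σ : RingAut F, ∀ a, σ a = a ^ q := 
      ⟨RingEquiv.ofBijective (H59.frob hF)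
        (Function.Involutive.bijective (H59.frob_frob hF)), fun _ => rfl⟩
    have e0 : (fun a : F => a ^ q) = σ := funext fun a => (hσ a).symm
    rw [e0]
    induction hm using Submodule.span_induction with
    | mem x hx =>
      obtain ⟨e, he, rfl⟩ := hx
      have h1 := (H57.mem_GU_iff σ hσ e).1 (by simpa [Gam] using EG he)
      have h2 : ((e : Mt n F).map σ)ᵀ * (e : Mt n F) = 1 := by
        simpa using congrArg Matrix.transpose h1
      have h3 : ((e : Mt n F).map σ)ᵀ = ((e⁻¹ : GL (Fin n) F) : Mt n F) := by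
        calc ((e : Mt n F).map σ)ᵀ
            = ((e : Mt n F).map σ)ᵀ * (e : Mt n F) * ((e⁻¹ : GL (Fin n) F) : Mt n F) := by
              rw [mul_assoc, Units.mul_inv, mul_one]
          _ = _ := by rw [h2, one_mul]
      rw [h3]
      exact mem _ (inv_mem he)
    | zero => simp
    | add x y _ _ h1 h2 =>
      have : ((x + y).map σ)ᵀ = (x.map σ)ᵀ + (y.map σ)ᵀ := by ext i j; simp
      rw [this]; exact Submodule.add_mem _ h1 h2
    | smul r x _ h =>
      have : ((r • x).map σ)ᵀ = σ r • (x.map σ)ᵀ := by ext i j; simp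
      rw [this]; exact Submodule.smul_mem _ _ h

end H10.SimK1
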