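import Cfsg.Agent.H53.SimXASpec

/-! # S3694, tower SIM, slot XA-U22 -/

set_option autoImplicit false

namespace H10.SimU22

open Subgroup Cfsg H98 Matrix H0.Sim H53.XA

theorem mulf {n : ℕ} {F : Type} [Field F] {f : Mt n F} (h : f * f = f) (a b : F) :
    (a • f + (1 - f)) * (b • f + (1 - f)) = (a * b) • f + (1 - f) := by
  simp only [add_mul, mul_add, sub_mul, mul_sub, smul_mul_assoc, mul_smul_comm, h, one_mul,
    mul_one]
  module

theorem job : JU22 := by
  intro fr rk n F _ _ f hq hf hr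
  classical
  have hF : Fintype.card F = 2 ^ 2 := by simpa [Fq] using hq
  have adf := hf.fx rfl
  refine ⟨?_, ?_⟩
  · obtain ⟨ω, h0, h1⟩ : ∃ ω : F, ω ≠ 0 ∧ ω ≠ 1 := by
      by_contra hn
      push Not at hn
      have : (Finset.univ : Finset F) ⊆ {0, 1} := fun x _ => by
        by_cases h : x = 0
        · simp [h]
        · simp [hn x h]
      have h2 := (Finset.card_le_card this).trans Finset.card_le_two
      rw [Finset.card_univ, hF] at h2
      omega
    have h3 : ω ^ 3 = 1 := by simpa [hF] using FiniteField.pow_card_sub_one_eq_one ω h0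
    have e1 : (ω • f + (1 - f)) * (ω ^ 2 • f + (1 - f)) = 1 := by
      rw [mulf hf.sq, ← pow_succ', h3]; simp
    have e2 : (ω ^ 2 • f + (1 - f)) * (ω • f + (1 - f)) = 1 := by
      rw [mulf hf.sq, ← pow_succ, h3]; simp
    refine ⟨⟨_, _, e1, e2⟩, (mem_gu hF).2 ?_, ω, h1, rfl⟩
    show ad 2 (ω • f + (1 - f)) * (ω • f + (1 - f)) = 1
    rw [ad_add hF, ad_smul hF, ad_sub hF, ad_one hF, adf, e2]
  obtain ⟨P, P', hP⟩ := fr n F true 2 2 f hq hf hr
  have s1 := hP.s rfl
  have s2 : ad 2 P' = P := by rw [← s1, ad_ad hF]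
  have mu : ∀ D D' : Mt 2 F, (P * D * P') * (P * D' * P') = P * (D * D') * P' := fun D D' => by
    calc (P * D * P') * (P * D' * P') = P * D * (P' * P) * D' * P' := by
          simp only [Matrix.mul_assoc]
      _ = P * (D * D') * P' := by rw [hP.l, Matrix.mul_one, Matrix.mul_assoc P]
  have one : P * (1 : Mt 2 F) * P' = f := by rw [Matrix.mul_one, hP.r]
  have adj : ∀ D : Mt 2 F, ad 2 (P * D * P') = P * ad 2 D * P' := fun D => by
    rw [ad_mul hF, ad_mul hF, s1, s2, Matrix.mul_assoc]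
  have inj : ∀ D : Mt 2 F, P * D * P' = 0 → D = 0 := fun D h => by
    calc D = (P' * P) * D * (P' * P) := by rw [hP.l, Matrix.one_mul, Matrix.mul_one]
      _ = P' * (P * D * P') * P := by simp only [Matrix.mul_assoc]
      _ = 0 := by rw [h, Matrix.mul_zero, Matrix.zero_mul]
  let E₁ : Mt 2 F := !![1, 0; 0, 0]
  let E₂ : Mt 2 F := !![0, 0; 0, 1]
  have a11 : E₁ * E₁ = E₁ := by ext i j; fin_cases i <;> fin_cases j <;> simp [E₁]
  have a22 : E₂ * E₂ = E₂ := by ext i j; fin_cases i <;> fin_cases j <;> simp [E₂]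
  have a12 : E₁ * E₂ = 0 := by ext i j; fin_cases i <;> fin_cases j <;> simp [E₁, E₂]
  have a21 : E₂ * E₁ = 0 := by ext i j; fin_cases i <;> fin_cases j <;> simp [E₁, E₂]
  have b1 : ad 2 E₁ = E₁ := by ext i j; fin_cases i <;> fin_cases j <;> simp [E₁]
  have b2 : ad 2 E₂ = E₂ := by ext i j; fin_cases i <;> fin_cases j <;> simp [E₂]
  have sum : E₁ + E₂ = 1 := by ext i j; fin_cases i <;> fin_cases j <;> simp [E₁, E₂]
  have n1 : E₁ ≠ 0 := fun h => by simpa [E₁] using congrFun (congrFun h 0) 0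
  have n2 : E₂ ≠ 0 := fun h => by simpa [E₂] using congrFun (congrFun h 1) 1
  have sum' : P * E₁ * P' + P * E₂ * P' = f := by
    rw [← Matrix.add_mul, ← Matrix.mul_add, sum, one]
  have sub : f - P * E₁ * P' = P * E₂ * P' := by rw [← sum', add_sub_cancel_left]
  have i1 : Ip true 2 (P * E₁ * P') := ⟨by rw [mu, a11], fun _ => by rw [adj, b1]⟩
  have i2 : Ip true 2 (P * E₂ * P') := ⟨by rw [mu, a22], fun _ => by rw [adj, b2]⟩
  have r := (rk n F).1 _ _ i1.sq i2.sq (by rw [mu, a12]; simp) (by rw [mu, a21]; simp)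
  rw [sum', hr] at r
  have r1 : (P * E₁ * P').rank ≠ 0 := fun h => n1 (inj _ ((rk n F).2.2.2.1 _ h))
  have r2 : (P * E₂ * P').rank ≠ 0 := fun h => n2 (inj _ ((rk n F).2.2.2.1 _ h))
  refine ⟨P * E₁ * P', i1, by omega, by conv_lhs => rw [← one, mu, mul_one],
    by conv_lhs => rw [← one, mu, one_mul], sub ▸ i2, by rw [sub]; omega,
    fun δ hδ d1 d2 d3 => ?_⟩
  obtain ⟨D, hD⟩ : ∃ D : Mt 2 F, D = P' * δ * P := ⟨_, rfl⟩
  have e : δ = P * D * P' := by
    calc δ = f * δ * f := by rw [d3, d2]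
      _ = P * D * P' := by rw [← hP.r, hD]; simp only [Matrix.mul_assoc]
  have k1 : D * D = D := sub_eq_zero.1 (inj _ (by
    rw [Matrix.mul_sub, Matrix.sub_mul, ← mu, ← e, hδ.sq, sub_self]))
  have k2 : ad 2 D = D := sub_eq_zero.1 (inj _ (by
    rw [Matrix.mul_sub, Matrix.sub_mul, ← adj, ← e, hδ.fx rfl, sub_self]))
  have p00 : D 0 0 ^ 2 = D 0 0 := congrFun (congrFun k2 0) 0
  have p11 : D 1 1 ^ 2 = D 1 1 := congrFun (congrFun k2 1) 1
  have p10 : D 0 1 ^ 2 = D 1 0 := congrFun (congrFun k2 1) 0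
  have q00 : D 0 0 * D 0 0 + D 0 1 * D 1 0 = D 0 0 := by
    simpa [Matrix.mul_apply, Fin.sum_univ_two] using congrFun (congrFun k1 0) 0
  have z01 : D 0 1 = 0 := pow_eq_zero_iff (n := 3) (by decide) |>.1 (by
    linear_combination q00 - p00 + D 0 1 * p10)
  have z10 : D 1 0 = 0 := by rw [← p10, z01]; simp
  have c0 : D 0 0 = 0 ∨ D 0 0 = 1 := by
    rcases mul_eq_zero.1 (show D 0 0 * (D 0 0 - 1) = 0 by linear_combination p00) with h | h
    · exact Or.inl h
    · exact Or.inr (sub_eq_zero.1 h)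
  have c1 : D 1 1 = 0 ∨ D 1 1 = 1 := by
    rcases mul_eq_zero.1 (show D 1 1 * (D 1 1 - 1) = 0 by linear_combination p11) with h | h
    · exact Or.inl h
    · exact Or.inr (sub_eq_zero.1 h)
  have eta := Matrix.eta_fin_two D
  rw [z01, z10] at eta
  rw [sub]
  rcases c0 with h0 | h0 <;> rcases c1 with h1 | h1 <;> rw [h0, h1] at eta
  · have : D = 0 := by rw [eta]; ext i j; fin_cases i <;> fin_cases j <;> simp
    rw [e, this] at d1
    simp at d1
  · exact Or.inr (by rw [e, eta])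
  · exact Or.inl (by rw [e, eta])
  · have : D = 1 := by rw [eta]; ext i j; fin_cases i <;> fin_cases j <;> simp
    rw [e, this, one, hr] at d1
    omega

end H10.SimU22
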