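/- U4 tower, job Bar: the group induced on `W`. -/
import Cfsg.Agent.H28.U4Gen

set_option autoImplicit false
set_option linter.unusedSectionVars false
set_option linter.unusedSimpArgs false

open Subgroup H90.RF H28.U4
open H90.U5 (BF DD)

universe v

namespace H10.U4B

variable {K : Type*} [Field K] [Finite K] {T : BF K} {α : Co T → Co T} {g : K × K → K × K}

theorem g_add (a : Au (sQ T) α) (e : ∀ u ∈ sQ T, (α u).π = g u.π) (x y : K × K) :
    g (x + y) = g x + g y := by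
  have := e _ (mul_mem (w1_mem x) (w1_mem y))
  rw [a.mul _ (w1_mem x) _ (w1_mem y), π_mul (a.mem _ (w1_mem y)), π_mul (w1_mem y), e _ (w1_mem x),
    e _ (w1_mem y)] at this
  exact this.symm

theorem g_bf (a : Au (sQ T) α) (e : ∀ u ∈ sQ T, (α u).π = g u.π) (x y : K × K) :
    bf T (g x) (g y) = (α (cm (w1 T x) (w1 T y))).d := by
  rw [a.cm (w1_mem x) (w1_mem y), cm_dQ (a.mem _ (w1_mem x)) (a.mem _ (w1_mem y)), e _ (w1_mem x),
    e _ (w1_mem y)]
  rfl

theorem g_qf (h2 : (2 : K) = 0) (a : Au (sQ T) α) (e : ∀ u ∈ sQ T, (α u).π = g u.π) (x : K × K) :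
    qf T (g x) = (α (w1 T x * w1 T x)).d := by
  rw [a.mul _ (w1_mem x) _ (w1_mem x), (sq_Q h2 (a.mem _ (w1_mem x))).2, e _ (w1_mem x)]
  rfl

open Classical in
theorem g_form (a : Au (sQ T) α) (e : ∀ u ∈ sQ T, (α u).π = g u.π) :
    ∃ ζ : K → K, ζ 0 = 0 ∧ (∀ l, T.σ l = l → ζ l = 0 → l = 0) ∧
    (∀ x y, bf T (g x) (g y) = ζ (bf T x y)) ∧ ((2 : K) = 0 → ∀ x, qf T (g x) = ζ (qf T x)) := by
  let ζ : K → K := fun l => if h : T.σ l = l then (α (xd T l h)).d else 0
  have k : ∀ z ∈ sZ T, (α z).d = ζ z.d := fun z hz => by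
    simp only [ζ, dif_pos (A_d hz.1)]
    rw [← eq_of_Z (u := z) (w := xd T z.d (A_d hz.1)) hz ⟨rfl, rfl, rfl⟩ rfl]
  refine ⟨ζ, ?_, fun l hl h => ?_, fun x y => ?_, fun h2 x => ?_⟩
  · simpa [a.one] using (k 1 (one_mem _)).symm
  · have hz : xd T l hl ∈ sZ T := ⟨rfl, rfl, rfl⟩
    exact congrArg Co.d (a.inj _ (Z_le_Q hz) (eq_of_Z (pr_Z a _ hz) (one_mem _) ((k _ hz).trans h)))
  · rw [g_bf a e, k _ (cm_Q (w1_mem x) (w1_mem y)), cm_dQ (w1_mem x) (w1_mem y)]; rfl
  · rw [g_qf h2 a e, k _ (sq_Q h2 (w1_mem x)).1, (sq_Q h2 (w1_mem x)).2]; rfl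

theorem eq_ub {g : Equiv.Perm (K × K)} {s : Co T} (e : ∀ u ∈ sQ T, (s * u * s⁻¹).π = g u.π) :
    g = ub (-s.b) := Equiv.ext fun w => (e _ (w1_mem w)).symm.trans (cj_Q' s (w1_mem w))

/-- the unipotent isometries that are trivial on the line and the quotient -/
theorem unip {h : K × K → K × K} (ha : ∀ x y, h (x + y) = h x + h y) (h1 : ∀ x, (h x).1 = x.1)
    (h2 : ∀ c, h (0, c) = (0, c)) (hb : ∀ x y, bf T (h x) (h y) = bf T x y)
    (hq : (2 : K) = 0 → ∀ x, qf T (h x) = qf T x) :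
    ∃ b γ, T.σ b = b ∧ ((2 : K) = 0 → γ = 0) ∧ ∀ x, h x = ub b (tg T γ x) := by
  let m : K → K := fun a => (h (a, 0)).2
  have sy : ∀ a a', a * T.σ (m a') + T.σ a * m a' = a' * T.σ (m a) + T.σ a' * m a := fun a a' => by
    have := hb (a, 0) (a', 0)
    simp only [bf, h1, map_zero, mul_zero, add_zero, sub_zero] at this
    linear_combination this
  obtain ⟨β, γ, e⟩ := T.exists_lin m (fun x y => by simpa using congrArg Prod.snd (ha (x, 0) (y, 0)))
    fun l x => sub_eq_zero.1 (T.lin_zero (x := T.σ (m (l * x) - l * m x)) (y := m (l * x) - l * m x)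
      fun t => by
        have hl : T.σ l = l := l.2
        have a1 := sy t (l * x)
        have a2 := sy t x
        simp only [map_sub, map_mul, hl] at a1 ⊢
        linear_combination a1 - l * a2).2
  have n : T.σ T.ω - T.ω ≠ 0 := sub_ne_zero.2 T.ne
  refine ⟨β, γ, ?_, fun k => ?_, fun x => ?_⟩
  · have := sy T.ω 1
    simp only [e, map_add, map_mul, T.sq, map_one] at this
    exact sub_eq_zero.1 ((mul_eq_zero.1 (show (T.σ β - β) * (T.σ T.ω - T.ω) = 0 by
      linear_combination -this)).resolve_right n)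
  · have q : ∀ a, T.σ γ * a ^ 2 + γ * T.σ a ^ 2 + (β + T.σ β) * (a * T.σ a) = 0 := fun a => by
      have := hq k (a, 0)
      simp only [qf, h1, map_zero, mul_zero, add_zero] at this
      change a * T.σ (m a) + T.σ a * m a = 0 at this
      simp only [e, map_add, map_mul, T.sq] at this
      linear_combination this
    have := sy T.ω 1
    simp only [e, map_add, map_mul, T.sq, map_one] at this
    have hβ : T.σ β = β := sub_eq_zero.1 ((mul_eq_zero.1 (show (T.σ β - β) * (T.σ T.ω - T.ω) = 0 by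
      linear_combination -this)).resolve_right n)
    have q1 := q 1
    have q2 := q T.ω
    rw [hβ] at q1 q2
    rw [map_one] at q1
    refine (mul_eq_zero.1 (show γ * (T.σ T.ω - T.ω) ^ 2 = 0 from ?_)).resolve_right (pow_ne_zero 2 n)
    linear_combination q2 - T.ω ^ 2 * q1 +
      (γ * T.ω ^ 2 - γ * T.ω * T.σ T.ω - β * T.ω * T.σ T.ω + β * T.ω ^ 2) * k
  · have := ha (x.1, 0) (0, x.2)
    rw [h2] at this
    simp only [Prod.mk_add_mk, add_zero, zero_add, Prod.mk.eta] at this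
    refine Prod.ext (h1 x) ?_
    rw [this]
    change m x.1 + x.2 = x.2 + γ * T.σ x.1 + β * x.1
    rw [e]; ring

theorem pow_π {α : Equiv.Perm (Co T)} {g : Equiv.Perm (K × K)} (a : Au (sQ T) α)
    (e : ∀ u ∈ sQ T, (α u).π = g u.π) (n : ℕ) : ∀ u ∈ sQ T, ((α ^ n) u).π = (g ^ n) u.π := by
  induction n with
  | zero => exact fun _ _ => rfl
  | succ n ih =>
    intro u hu
    rw [pow_succ, pow_succ, Equiv.Perm.mul_apply, Equiv.Perm.mul_apply, ih _ (a.mem u hu), e u hu]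

theorem pow_cj {β : Equiv.Perm (Co T)} {s : Co T} (e : ∀ u ∈ sQ T, β u = s * u * s⁻¹) (n : ℕ) :
    ∀ u ∈ sQ T, (β ^ n) u = s ^ n * u * (s ^ n)⁻¹ := by
  induction n with
  | zero => simp
  | succ n ih =>
    intro u hu
    rw [pow_succ, Equiv.Perm.mul_apply, e u hu, ih _ (nQ.conj_mem u hu s), pow_succ]; group

theorem jobBar : JobBar.{v} := fun p _ K _ _ _ T hS hA Y0 Y1 Y2 t =>
  { add := fun g ⟨α, _, a, e⟩ => g_add a e
    semi := fun g ⟨α, _, a, e⟩ l hl => by
      obtain ⟨l', hl', k⟩ := hA α a l hl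
      refine ⟨l', hl', fun x => ?_⟩
      have := k _ (w1_mem x) _ (w1_mem (l • x)) rfl
      rwa [e _ (w1_mem _), e _ (w1_mem _)] at this
    form := fun g ⟨α, _, a, e⟩ => g_form a e
    uu := fun b hb => by
      obtain ⟨y, hy, ey⟩ := t.inn (xb T b hb)⁻¹
      obtain ⟨α, hα, e⟩ := t.res1 y hy
      exact ⟨α, hα, t.l1.au α hα, fun u hu => by rw [e u hu, ey, inv_inv, cj_Q _ hu]; rfl⟩
    pel := fun g ⟨α, hα, a, e⟩ hg ⟨k, hk⟩ => by
      obtain ⟨s, -, hs⟩ := t.rad1 (α ^ p ^ k) (pow_mem hα _) fun u hu => by rw [pow_π a e _ u hu, hk]; rfl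
      obtain ⟨m, hm⟩ := pgroup_Co p s
      obtain ⟨s', hs'⟩ := t.pel1 α hα ((pl_iff a e).1 hg) ⟨k + m, t.l1.ext (pow_mem hα _) (one_mem _)
        fun u hu => by rw [pow_add, pow_mul, pow_cj hs _ u hu, hm]; simp⟩
      exact ⟨-s'.b, by simp, eq_ub fun u hu => by rw [← hs' u hu, e u hu]⟩
    nor := fun g ⟨α, hα, a, e⟩ hg => by
      obtain ⟨y, hy, ey⟩ := t.ext1 α hα ((pl_iff a e).1 hg)
      obtain ⟨δ, d1, d2, d3⟩ := hS.2 y (t.l0.au y hy)
      have a' : Au (sQ T) (sd T δ) := (au_sd δ).restrict le_top (pr_sd δ _ (by simp))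
      have e' : ∀ u ∈ sQ T, (sd T δ u).π = sdW T δ u.π := fun u _ => rfl
      have s := (sdW T δ).surjective
      obtain ⟨b, γ, hb, hγ, k⟩ := unip (T := T) (h := ⇑(g * (sdW T δ)⁻¹)) (fun x y => by
          obtain ⟨x, rfl⟩ := s x
          obtain ⟨y, rfl⟩ := s y
          simp [← g_add a' e', g_add a e])
        (fun x => by
          obtain ⟨x, rfl⟩ := s x
          have := (d1 (w1 T x)).1
          rw [← ey _ (w1_mem x)] at this
          simp only [Equiv.Perm.mul_apply, Equiv.Perm.coe_inv, Equiv.symm_apply_apply]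
          exact (congrArg Prod.fst (e _ (w1_mem x))).symm.trans this)
        (fun c => by
          obtain ⟨x, hx⟩ := s (0, c)
          have x0 : x.1 = 0 := by simpa [sdW_apply] using congrArg Prod.fst hx
          have h1 := (d1 (w1 T x)).1
          have h2 := d2 (w1 T x) ⟨x0, rfl⟩
          rw [← ey _ (w1_mem x)] at h1 h2
          rw [← hx]
          simp only [Equiv.Perm.mul_apply, Equiv.Perm.coe_inv, Equiv.symm_apply_apply]
          exact (e _ (w1_mem x)).symm.trans (Prod.ext h1 h2))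
        (fun x y => by
          obtain ⟨x, rfl⟩ := s x
          obtain ⟨y, rfl⟩ := s y
          have z := cm_Q (w1_mem (T := T) x) (w1_mem y)
          simp [g_bf a e, g_bf a' e', ey _ (Z_le_Q z), d3 _ z])
        (fun h2 x => by
          obtain ⟨x, rfl⟩ := s x
          have z := (sq_Q h2 (w1_mem (T := T) x)).1
          simp only [Equiv.Perm.mul_apply, Equiv.Perm.coe_inv, Equiv.symm_apply_apply]
          rw [g_qf h2 a e, g_qf h2 a' e', ey _ (Z_le_Q z), d3 _ z])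
      exact ⟨b, γ, δ, hb, hγ, mul_inv_eq_iff_eq_mul.1 (Equiv.ext k)⟩ }

end H10.U4B
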