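/- U4 tower: the group `Co T` as a group of `4 × 4` matrices and its normalizer in the unitary group. -/
import Cfsg.Agent.H28.U4Gen

set_option autoImplicit false
set_option linter.unusedSectionVars false
set_option linter.unusedSimpArgs false

open Subgroup H90.RF H28.U4 Matrix
open H90.U5 (BF DD ψ)

namespace H10.U4R

variable {K : Type*} [Field K] (T : BF K)

abbrev M4 (K : Type*) := Matrix (Fin 4) (Fin 4) K

/-- the Gram matrix -/
def JJ : M4 K := !![0, 0, 0, 1; 0, 0, 1, 0; 0, -1, 0, 0; -1, 0, 0, 0]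

/-- the conjugate transpose -/
def st (M : M4 K) : M4 K := (M.map T.σ)ᵀ

theorem st_mul (M N : M4 K) : st T (M * N) = st T N * st T M := by
  rw [st, Matrix.map_mul, transpose_mul]; rfl

theorem st_one : st T 1 = 1 := by rw [st, Matrix.map_one _ (map_zero _) (map_one _), transpose_one]

/-- the unitary group -/
def GU : Subgroup (GL (Fin 4) K) where
  carrier := {M | (M : M4 K) * JJ * st T M = JJ}
  one_mem' := by simp [st_one]
  mul_mem' := fun {M N} hM hN => by
    simp only [Set.mem_setOf_eq, Units.val_mul, st_mul] at *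
    calc _ = (M : M4 K) * ((N : M4 K) * JJ * st T N) * st T M := by noncomm_ring
      _ = JJ := by rw [hN, hM]
  inv_mem' := fun {M} hM => by
    simp only [Set.mem_setOf_eq] at *
    calc _ = ((M⁻¹ : GL (Fin 4) K) : M4 K) * ((M : M4 K) * JJ * st T M) * st T (M⁻¹ : GL (Fin 4) K) := by
          rw [hM]
      _ = ((M⁻¹ * M : GL (Fin 4) K) : M4 K) * JJ * st T (M⁻¹ * M : GL (Fin 4) K) := by
          rw [Units.val_mul, st_mul]; noncomm_ring
      _ = JJ := by rw [inv_mul_cancel, Units.val_one, st_one, one_mul, mul_one]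

theorem mem_GU {M : GL (Fin 4) K} : M ∈ GU T ↔ (M : M4 K) * JJ * st T M = JJ := Iff.rfl

/-- the special unitary group -/
def SU : Subgroup (GL (Fin 4) K) := GU T ⊓ (GeneralLinearGroup.det).ker

theorem mem_SU {M : GL (Fin 4) K} : M ∈ SU T ↔ M ∈ GU T ∧ (M : M4 K).det = 1 := by
  simp [SU, MonoidHom.mem_ker, Units.ext_iff]

theorem form (M : M4 K) (i j : Fin 4) : (M * (JJ : M4 K) * st T M : M4 K) i j =
    M i 0 * T.σ (M j 3) + M i 1 * T.σ (M j 2) - M i 2 * T.σ (M j 1) - M i 3 * T.σ (M j 0) := by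
  simp [mul_apply, Fin.sum_univ_four, JJ, st]; ring

variable {T}

/-- the matrix of an element -/
def mat (u : Co T) : M4 K :=
  !![1, u.a, u.c, u.d;
     0, 1, u.b, T.σ u.c - T.σ u.a * u.b;
     0, 0, 1, -T.σ u.a;
     0, 0, 0, 1]

theorem mat_mul (u w : Co T) : mat (u * w) = mat u * mat w := by
  ext i j
  fin_cases i <;> fin_cases j <;> simp [mat, mul_apply, Fin.sum_univ_four, T.sq] <;> ring

theorem mat_one : mat (1 : Co T) = 1 := by
  ext i j
  fin_cases i <;> fin_cases j <;> simp [mat]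

variable (T) in
/-- the embedding -/
def ι0 : Co T →* GL (Fin 4) K :=
  MonoidHom.toHomUnits ⟨⟨mat, mat_one⟩, mat_mul⟩

theorem ι0_val (u : Co T) : (ι0 T u : M4 K) = mat u := rfl

theorem ι0_inj : Function.Injective (ι0 T) := fun u w h => by
  have e : mat u = mat w := congrArg Units.val h
  exact Co.ext (congrFun₂ e 0 1) (congrFun₂ e 1 2) (congrFun₂ e 0 2) (congrFun₂ e 0 3)

theorem mat_tri (u : Co T) : (mat u).BlockTriangular id := fun i j h => by
  fin_cases i <;> fin_cases j <;> first | rfl | exact absurd h (by decide)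

theorem ι0_mem (u : Co T) : ι0 T u ∈ SU T := by
  refine (mem_SU T).2 ⟨?_, ?_⟩
  · rw [mem_GU, ι0_val]
    ext i j
    rw [form]
    fin_cases i <;> fin_cases j <;> simp [mat, JJ, T.sq, Co.σd] <;> ring
  · rw [ι0_val, det_of_upperTriangular (mat_tri u)]
    simp [Fin.prod_univ_four, mat]

theorem exists_mat {M : M4 K} (h : M * JJ * st T M = JJ) (ht : M.BlockTriangular id) (hd : ∀ i, M i i = 1) :
    ∃ u : Co T, mat u = M := by
  have z : ∀ i j : Fin 4, j < i → M i j = 0 := fun i j k => ht k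
  have f := fun i j => (form T M i j).symm.trans (congrFun₂ h i j)
  have f00 := f 0 0
  have f11 := f 1 1
  have f10 := f 1 0
  have f20 := f 2 0
  simp [JJ, hd, z 1 0 (by decide), z 2 0 (by decide), z 2 1 (by decide), z 3 0 (by decide),
    z 3 1 (by decide), z 3 2 (by decide)] at f00 f11 f10 f20
  refine ⟨⟨M 0 1, M 1 2, M 0 2, M 0 3, by linear_combination f11, by linear_combination -f00⟩, ?_⟩
  ext i j
  fin_cases i <;> fin_cases j <;> simp [mat, hd] <;>
    first | exact (z _ _ (by decide)).symm | grind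

/-- the diagonal matrices -/
def dU : (Fin 4 → Kˣ) →* GL (Fin 4) K :=
  MonoidHom.toHomUnits ⟨⟨fun t => diagonal fun i => (t i : K), by simp⟩, fun s t => by
    simp [diagonal_mul_diagonal]⟩

theorem dU_val (t : Fin 4 → Kˣ) : (dU t : M4 K) = diagonal fun i => (t i : K) := rfl

theorem dU_mem {t : Fin 4 → Kˣ} (h0 : t 0 * T.σ (t 3) = 1) (h1 : t 1 * T.σ (t 2) = 1) : dU t ∈ GU T := by
  have h3 := congrArg T.σ h1
  have h4 := congrArg T.σ h0
  rw [map_mul, T.sq, map_one, mul_comm] at h3 h4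
  rw [mem_GU, dU_val]
  ext i j
  rw [form]
  fin_cases i <;> fin_cases j <;> simp [JJ, diagonal, *]

variable (T) in
/-- the torus -/
def κ0 : Kˣ × Kˣ →* GL (Fin 4) K := dU.comp (MonoidHom.mk' (fun x => ![x.1 * x.2, x.2,
  (Units.map (T.σ : K →* K) x.2)⁻¹, (Units.map (T.σ : K →* K) (x.1 * x.2))⁻¹]) fun x y => by
    ext i; fin_cases i <;> simp <;> ring)

theorem κ0_val (x : Kˣ × Kˣ) : (κ0 T x : M4 K) =
    diagonal ![(x.1 : K) * x.2, x.2, (T.σ x.2)⁻¹, (T.σ x.1 * T.σ x.2)⁻¹] := by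
  rw [κ0, MonoidHom.comp_apply, dU_val]
  congr 1
  ext i; fin_cases i <;> simp

theorem κ0_mem (x : Kˣ × Kˣ) : κ0 T x ∈ GU T :=
  dU_mem (by simp [T.sq]; field_simp) (by simp [T.sq])

theorem κ0_conj (x : Kˣ × Kˣ) (u : Co T) : κ0 T x * ι0 T u = ι0 T (dg T x.1 x.2 u) * κ0 T x := by
  have h1 : T.σ x.1 ≠ 0 := by simp
  have h2 : T.σ x.2 ≠ 0 := by simp
  refine Units.ext ?_
  rw [Units.val_mul, Units.val_mul, κ0_val, ι0_val, ι0_val]
  ext i j
  rw [diagonal_mul, mul_diagonal]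
  fin_cases i <;> fin_cases j <;> simp [mat, dg, T.sq] <;> field_simp

/-- an element that conjugates the regular unipotent element into `U` is triangular -/
theorem tri_of {M : M4 K} {w : Co T} (h : mat (xa T 1 * xb T 1 (map_one _)) * M = M * mat w) :
    M.BlockTriangular id := by
  have f := congrFun₂ h
  have f00 := f 0 0
  have f10 := f 1 0
  have f20 := f 2 0
  have f11 := f 1 1
  have f21 := f 2 1
  have f22 := f 2 2
  simp [mat, mul_apply, Fin.sum_univ_four, xa, xb] at f00 f10 f20 f11 f21 f22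
  have e30 : M 3 0 = 0 := f20
  have e20 : M 2 0 = 0 := by simpa [e30] using f10
  have e10 : M 1 0 = 0 := by simpa [e30, e20] using f00
  have e31 : M 3 1 = 0 := by simpa [e20] using f21
  have e21 : M 2 1 = 0 := by simpa [e10, e31] using f11
  have e32 : M 3 2 = 0 := by simpa [e20, e21] using f22
  intro i j k
  fin_cases i <;> fin_cases j <;> first | assumption | exact absurd k (by decide)

/-- the triangular elements of `SU` -/
theorem dec {M : GL (Fin 4) K} (h : M ∈ SU T) (ht : (M : M4 K).BlockTriangular id) :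
    ∃ (u : Co T) (r s : Kˣ), T.σ s = s ∧ M = ι0 T u * κ0 T (t2 r * t1 s) := by
  obtain ⟨hU, hd⟩ := (mem_SU T).1 h
  have z : ∀ i j : Fin 4, j < i → (M : M4 K) i j = 0 := fun i j k => ht k
  have f := fun i j => (form T M i j).symm.trans (congrFun₂ hU i j)
  have f0 := f 3 0
  have f1 := f 2 1
  rw [det_of_upperTriangular ht, Fin.prod_univ_four] at hd
  simp [JJ, z 1 0 (by decide), z 2 0 (by decide), z 2 1 (by decide), z 3 0 (by decide),
    z 3 1 (by decide), z 3 2 (by decide)] at f0 f1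
  have n : ∀ i, (M : M4 K) i i ≠ 0 := fun i e => by
    fin_cases i <;> simp at e <;> simp [e] at hd
  let t : Fin 4 → Kˣ := fun i => Units.mk0 _ (n i)
  have g0 := congrArg T.σ f0
  have g1 := congrArg T.σ f1
  rw [map_mul, T.sq, map_one, mul_comm] at g0 g1
  have hD : dU t ∈ GU T := dU_mem g0 g1
  have hv : ((M * (dU t)⁻¹ : GL (Fin 4) K) : M4 K) = M * diagonal fun i => ((M : M4 K) i i)⁻¹ := by
    rw [← map_inv, Units.val_mul, dU_val]; simp [t]
  obtain ⟨u, hu⟩ := exists_mat (T := T) (mul_mem hU (inv_mem hD))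
    (by rw [hv]; exact ht.mul (blockTriangular_diagonal _)) fun i => by
      rw [hv, mul_diagonal, mul_inv_cancel₀ (n i)]
  refine ⟨u, t 0, t 0 * t 1, by simp [t]; grind, ?_⟩
  have e : ι0 T u = M * (dU t)⁻¹ := Units.ext hu
  rw [e, mul_assoc, left_eq_mul, inv_mul_eq_one]
  refine Units.ext ?_
  rw [κ0_val, dU_val]
  congr 1
  have s0 : T.σ ((M : M4 K) 0 0) ≠ 0 := by simpa using n 0
  have s1 : T.σ ((M : M4 K) 1 1) ≠ 0 := by simpa using n 1
  have n0 := n 0
  have n1 := n 1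
  have e3 : (M : M4 K) 2 2 = (T.σ ((M : M4 K) 1 1))⁻¹ := eq_inv_of_mul_eq_one_left f1
  have e4 : (M : M4 K) 3 3 = (T.σ ((M : M4 K) 0 0))⁻¹ := eq_inv_of_mul_eq_one_left f0
  ext i
  fin_cases i <;> simp [t, t1, t2, T.sq, e3, e4] <;> field_simp

/-- `n₁` -/
def n1 : GL (Fin 4) K := ⟨!![1, 0, 0, 0; 0, 0, 1, 0; 0, -1, 0, 0; 0, 0, 0, 1],
  !![1, 0, 0, 0; 0, 0, -1, 0; 0, 1, 0, 0; 0, 0, 0, 1],
  by ext i j; fin_cases i <;> fin_cases j <;> simp [mul_apply, Fin.sum_univ_four],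
  by ext i j; fin_cases i <;> fin_cases j <;> simp [mul_apply, Fin.sum_univ_four]⟩
/-- `n₂` -/
def n2 : GL (Fin 4) K := ⟨!![0, 1, 0, 0; -1, 0, 0, 0; 0, 0, 0, -1; 0, 0, 1, 0],
  !![0, -1, 0, 0; 1, 0, 0, 0; 0, 0, 0, 1; 0, 0, -1, 0],
  by ext i j; fin_cases i <;> fin_cases j <;> simp [mul_apply, Fin.sum_univ_four],
  by ext i j; fin_cases i <;> fin_cases j <;> simp [mul_apply, Fin.sum_univ_four]⟩

theorem n1_mem : n1 ∈ SU T := by
  refine (mem_SU T).2 ⟨?_, ?_⟩
  · rw [mem_GU]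
    ext i j
    rw [form]
    fin_cases i <;> fin_cases j <;> simp [n1, JJ]
  · simp [n1, det_succ_row_zero, Fin.sum_univ_succ, Fin.succAbove]

theorem n2_mem : n2 ∈ SU T := by
  refine (mem_SU T).2 ⟨?_, ?_⟩
  · rw [mem_GU]
    ext i j
    rw [form]
    fin_cases i <;> fin_cases j <;> simp [n2, JJ]
  · simp [n2, det_succ_row_zero, Fin.sum_univ_succ, Fin.succAbove]

theorem n1_conj {u : Co T} (hu : u ∈ sQ T) : n1 * ι0 T u = ι0 T u.nu1 * n1 := by
  have h : u.b = 0 := hu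
  refine Units.ext ?_
  rw [Units.val_mul, Units.val_mul, ι0_val, ι0_val]
  ext i j
  fin_cases i <;> fin_cases j <;> simp [n1, mat, Co.nu1, mul_apply, Fin.sum_univ_four, h]

theorem n2_conj {u : Co T} (hu : u ∈ sA T) : n2 * ι0 T u = ι0 T u.nu2 * n2 := by
  have h : u.a = 0 := hu
  refine Units.ext ?_
  rw [Units.val_mul, Units.val_mul, ι0_val, ι0_val]
  ext i j
  fin_cases i <;> fin_cases j <;> simp [n2, mat, Co.nu2, mul_apply, Fin.sum_univ_four, h, T.sq]

/-- the action of the normalizer of `Q` on the lines of `W` -/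
theorem om_mat {M : M4 K} (hM : M * JJ * st T M = JJ)
    (h : ∀ u ∈ sQ T, ∃ w ∈ sQ T, M * mat u = mat w * M) :
    (∀ u ∈ sD T, ∀ w ∈ sQ T, M * mat u = mat w * M → w.a = 0) ∨
      ∃ b, T.σ b = b ∧ ∀ u ∈ sD T, ∀ w ∈ sQ T, M * mat u = mat w * M → w.c = b * w.a := by
  obtain ⟨w1, -, h1⟩ := h (xa T 1) rfl
  obtain ⟨w2, hw2, h2⟩ := h (xc T 1) rfl
  have e30 : M 3 0 = 0 := by simpa [mat, mul_apply, Fin.sum_univ_four, xa] using congrFun₂ h1 3 1
  have e32 : M 3 2 = 0 := by simpa [mat, mul_apply, Fin.sum_univ_four, xa] using congrFun₂ h1 3 3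
  have e31 : M 3 1 = 0 := by simpa [mat, mul_apply, Fin.sum_univ_four, xc] using congrFun₂ h2 3 3
  have f := fun i => (form T M i 3).symm.trans (congrFun₂ hM i 3)
  have f0 := f 0
  have f1 := f 1
  have f2 := f 2
  simp [JJ, e30, e31, e32] at f0 f1 f2
  have n : M 3 3 ≠ 0 := fun e => by simp [e] at f0
  have e10 := f1.resolve_right n
  have e20 := f2.resolve_right n
  have k : ∀ u ∈ sD T, ∀ w ∈ sQ T, M * mat u = mat w * M → M 1 1 * T.σ u.c = T.σ w.c * M 3 3 ∧
      M 2 1 * T.σ u.c = -(T.σ w.a * M 3 3) ∧ w.a * M 1 1 + w.c * M 2 1 = 0 := fun u hu w hw e => by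
    have hb : w.b = 0 := hw
    have a1 := congrFun₂ e 1 3
    have a2 := congrFun₂ e 2 3
    have a3 := congrFun₂ e 0 1
    simp [mat, mul_apply, Fin.sum_univ_four, hu.1, hu.2, hb, e10, e20, e31] at a1 a2 a3
    exact ⟨by linear_combination a1, by linear_combination a2, by linear_combination -a3⟩
  by_cases e21 : M 2 1 = 0
  · exact Or.inl fun u hu w hw e => by simpa [e21, n] using (k u hu w hw e).2.1
  have k' : ∀ u ∈ sD T, ∀ w ∈ sQ T, M * mat u = mat w * M → w.c = -(M 1 1 / M 2 1) * w.a :=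
    fun u hu w hw e => by field_simp; linear_combination (k u hu w hw e).2.2
  refine Or.inr ⟨_, ?_, k'⟩
  obtain ⟨a1, a2, -⟩ := k _ ⟨rfl, rfl⟩ w2 hw2 h2
  have a3 := congrArg T.σ (k' _ ⟨rfl, rfl⟩ w2 hw2 h2)
  simp only [xc, map_one, mul_one] at a1 a2
  rw [map_mul] at a3
  generalize T.σ (-(M 1 1 / M 2 1)) = b at a3
  field_simp
  linear_combination b * a2 + a1 + M 3 3 * a3

end H10.U4R
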