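/- U4 tower, job Real: the group `SU₄ . Γ`. -/
import Cfsg.Agent.H10.U4Mat

set_option autoImplicit false
set_option linter.unusedSectionVars false
set_option linter.unusedSimpArgs false

open Subgroup H28.U4 Matrix SemidirectProduct
open H90.U5 (BF DD ψ ψ_fst ψ_snd)

universe v

namespace H10.U4R

variable {K : Type*} [Field K] [Finite K] {T : BF K}

variable (K) in
/-- the field automorphisms on matrices -/
def ψ4 : RingAut K →* MulAut (GL (Fin 4) K) where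
  toFun φ := Units.mapEquiv (RingEquiv.mapMatrix (m := Fin 4) φ).toMulEquiv
  map_one' := rfl
  map_mul' _ _ := rfl

theorem ψ4_val (φ : RingAut K) (M : GL (Fin 4) K) : (ψ4 K φ M : M4 K) = (M : M4 K).map φ := rfl

variable (K) in
/-- the semilinear group -/
abbrev ΓL : Type _ := GL (Fin 4) K ⋊[ψ4 K] RingAut K

instance instFiniteΓL : Finite (ΓL K) :=
  haveI : Finite (RingAut K) := Finite.of_injective (fun φ : RingAut K => (φ : K → K)) DFunLike.coe_injective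
  Finite.of_equiv _ SemidirectProduct.equivProd.symm

theorem ψ4_κ0 (φ : RingAut K) (x : Kˣ × Kˣ) : ψ4 K φ (κ0 T x) = κ0 T (ψ K φ x) := by
  refine Units.ext ?_
  rw [ψ4_val, κ0_val, κ0_val, diagonal_map (map_zero _)]
  congr 1
  ext i
  fin_cases i <;> simp [ψ_fst, ψ_snd, T.comm]

theorem ψ4_ι0 (φ : RingAut K) (u : Co T) : ψ4 K φ (ι0 T u) = ι0 T (fa T φ u) := by
  refine Units.ext ?_
  rw [ψ4_val, ι0_val, ι0_val]
  ext i j
  fin_cases i <;> fin_cases j <;> simp [mat, fa, T.comm]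

theorem ψ4_mem (φ : RingAut K) {M : GL (Fin 4) K} (h : M ∈ SU T) : ψ4 K φ M ∈ SU T := by
  obtain ⟨h1, h2⟩ := (mem_SU T).1 h
  refine (mem_SU T).2 ⟨?_, ?_⟩
  · rw [mem_GU, ψ4_val]
    ext i j
    have := congrArg φ ((form T M i j).symm.trans (congrFun₂ h1 i j))
    rw [form]
    simp only [map_add, map_sub, map_mul, T.comm] at this
    refine this.trans ?_
    fin_cases i <;> fin_cases j <;> simp [JJ]
  · exact (φ.toRingHom.map_det (M : M4 K)).symm.trans (by rw [h2, map_one])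

variable (T) in
/-- the diagonal and field automorphisms -/
def κ : DD K →* ΓL K :=
  SemidirectProduct.map (κ0 T) (MonoidHom.id _) fun φ => MonoidHom.ext fun x => (ψ4_κ0 φ x).symm

theorem κ_inl (x : Kˣ × Kˣ) : κ T (inl x) = inl (κ0 T x) := map_inl _ _ _ _

theorem κ_conj (δ : DD K) (M : GL (Fin 4) K) :
    κ T δ * inl M * (κ T δ)⁻¹ = inl (κ0 T δ.left * ψ4 K δ.right M * (κ0 T δ.left)⁻¹) := by
  have : κ T δ = inl (κ0 T δ.left) * inr δ.right := (inl_left_mul_inr_right _).symm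
  rw [this, map_mul, map_mul, inl_aut, map_inv, map_inv]
  group

theorem κ_ι (δ : DD K) (u : Co T) : κ T δ * inl (ι0 T u) * (κ T δ)⁻¹ = inl (ι0 T (sd T δ u)) := by
  rw [κ_conj, ψ4_ι0, κ0_conj, mul_inv_cancel_right]; rfl

theorem SU_conj {D M : GL (Fin 4) K} (hD : D ∈ GU T) (h : M ∈ SU T) : D * M * D⁻¹ ∈ SU T :=
  mem_inf.2 ⟨(GU T).mul_mem ((GU T).mul_mem hD h.1) ((GU T).inv_mem hD),
    (MonoidHom.normal_ker _).conj_mem _ h.2 _⟩

variable (T) in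
/-- the realizing group -/
def GG (Γ : Subgroup (DD K)) : Subgroup (ΓL K) := (SU T).map inl ⊔ Γ.map (κ T)

theorem mem_GG {Γ : Subgroup (DD K)} {g : ΓL K} (h : g ∈ GG T Γ) :
    ∃ M ∈ SU T, ∃ δ ∈ Γ, g = inl M * κ T δ := by
  have hn : Γ.map (κ T) ≤ normalizer ((SU T).map (inl : _ →* ΓL K) : Set (ΓL K)) := by
    rintro _ ⟨δ, -, rfl⟩
    refine mem_normalizer_fintype ?_
    rintro _ ⟨M, hM, rfl⟩
    exact ⟨_, SU_conj (κ0_mem _) (ψ4_mem _ hM), (κ_conj δ M).symm⟩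
  have : g ∈ (GG T Γ : Set (ΓL K)) := h
  rw [GG, coe_mul_of_right_le_normalizer_left _ _ hn] at this
  obtain ⟨_, ⟨M, hM, rfl⟩, _, ⟨δ, hδ, rfl⟩, rfl⟩ := this
  exact ⟨M, hM, δ, hδ, rfl⟩

theorem mat_eq {M : GL (Fin 4) K} {δ : DD K} {u w : Co T}
    (h : inl M * κ T δ * inl (ι0 T u) * (inl M * κ T δ)⁻¹ = inl (ι0 T w)) :
    (M : M4 K) * mat (sd T δ u) = mat w * M := by
  have e : M * ι0 T (sd T δ u) = ι0 T w * M := by
    apply inl_injective (φ := ψ4 K)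
    rw [map_mul, map_mul (inl : _ →* ΓL K), ← κ_ι, ← h]
    group
  exact congrArg Units.val e

/-- the normalizer of `U` -/
theorem nor_dec {Γ : Subgroup (DD K)} (ht : Tor T Γ) {g : ΓL K}
    (h : g ∈ GG T Γ) (hn : ∀ u, ∃ w, g⁻¹ * inl (ι0 T u) * g = inl (ι0 T w)) :
    ∃ u, ∃ δ ∈ Γ, g = inl (ι0 T u) * κ T δ := by
  obtain ⟨M, hM, δ, hδ, rfl⟩ := mem_GG h
  obtain ⟨w, hw⟩ := hn (xa T 1 * xb T 1 (map_one _))
  obtain ⟨u, r, s, hs, rfl⟩ := dec hM (tri_of (mat_eq (δ := δ) (u := w) (by rw [← hw]; group)).symm)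
  refine ⟨u, inl (t2 r * t1 s) * δ, mul_mem (by rw [map_mul]; exact mul_mem (ht.2 r) (ht.1 s hs)) hδ, ?_⟩
  rw [map_mul (κ T), κ_inl, map_mul, mul_assoc]

theorem act (u : Co T) (δ : DD K) (w : Co T) :
    inl (ι0 T u) * κ T δ * inl (ι0 T w) * (inl (ι0 T u) * κ T δ)⁻¹ =
      inl (ι0 T (u * sd T δ w * u⁻¹)) := by
  simp only [map_mul, map_inv, ← κ_ι]
  group

theorem pow_dec (u : Co T) (δ : DD K) (n : ℕ) :
    ∃ s, (inl (ι0 T u) * κ T δ) ^ n = inl (ι0 T s) * κ T (δ ^ n) := by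
  induction n with
  | zero => exact ⟨1, by simp⟩
  | succ n ih =>
    obtain ⟨s, hs⟩ := ih
    refine ⟨s * sd T (δ ^ n) u, ?_⟩
    rw [pow_succ, pow_succ, hs]
    simp only [map_mul, ← κ_ι]
    group

theorem eq_one {s : Co T} {δ : DD K} (h : inl (ι0 T s) * κ T δ = 1) : δ = 1 := by
  have h1 : δ.right = 1 := by simpa [κ] using congrArg SemidirectProduct.right h
  have h2 : ι0 T s * κ0 T δ.left = 1 := by simpa [κ] using congrArg SemidirectProduct.left h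
  have h3 := congrArg Units.val h2
  rw [Units.val_mul, κ0_val, ι0_val] at h3
  have a := congrFun₂ h3 0 0
  have b := congrFun₂ h3 1 1
  rw [mul_diagonal] at a b
  simp [mat] at a b
  refine SemidirectProduct.ext (Prod.ext (Units.ext ?_) b) h1
  simpa [b] using a

theorem pel {p : ℕ} {Γ : Subgroup (DD K)} (hΓ : (Nat.card Γ).Coprime p)
    {u : Co T} {δ : DD K} (hδ : δ ∈ Γ) {k : ℕ} (h : (inl (ι0 T u) * κ T δ) ^ p ^ k = 1) : δ = 1 := by
  obtain ⟨s, hs⟩ := pow_dec u δ (p ^ k)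
  exact orderOf_eq_one_iff.1 (Nat.eq_one_of_dvd_coprimes (hΓ.pow_right k) (Γ.orderOf_dvd_natCard hδ)
    (orderOf_dvd_of_pow_eq_one (eq_one (hs.symm.trans h))))

theorem om {Γ : Subgroup (DD K)} {g : ΓL K} (hg : g ∈ GG T Γ) {f : Co T → Co T} (hf : H90.RF.Pr f (sQ T))
    (h : ∀ u ∈ sQ T, g * inl (ι0 T u) * g⁻¹ = inl (ι0 T (f u))) :
    H90.RF.Pr f (sD T) ∨ ∃ b, T.σ b = b ∧ ∀ u ∈ sD T, (f u).c = b * (f u).a := by
  obtain ⟨M, hM, δ, -, rfl⟩ := mem_GG hg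
  have hD := pr_sd (T := T) δ (sD T) (by simp)
  refine (om_mat hM.1 fun u hu => ?_).imp (fun k u hu => ⟨?_, hf u hu.2⟩) fun ⟨b, hb, k⟩ => ⟨b, hb, fun u hu => ?_⟩
  · have hu' := pr_sd δ⁻¹ (sQ T) (by simp) u hu
    have := mat_eq (h _ hu')
    rw [sd_sd, mul_inv_cancel, sd_one] at this
    exact ⟨_, hf _ hu', this⟩
  · exact k _ (hD u hu) _ (hf u hu.2) (mat_eq (h u hu.2))
  · exact k _ (hD u hu) _ (hf u hu.2) (mat_eq (h u hu.2))

theorem real (p : ℕ) [Fact p.Prime] [CharP K p] (Γ : Subgroup (DD K)) (hΓ : (Nat.card Γ).Coprime p)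
    (ht : Tor T Γ) : ∃ ι : Co T →* GG T Γ, (∀ u, (ι u : ΓL K) = inl (ι0 T u)) ∧ Rl T p Γ ι := by
  have hS : ∀ M ∈ SU T, (inl M : ΓL K) ∈ GG T Γ := fun M hM => mem_sup_left ⟨M, hM, rfl⟩
  let ι : Co T →* GG T Γ := ((inl : _ →* ΓL K).comp (ι0 T)).codRestrict _ fun u => hS _ (ι0_mem u)
  have hn : ∀ g ∈ normalizer (ι.range : Set (GG T Γ)),
      ∃ u, ∃ δ ∈ Γ, (g : ΓL K) = inl (ι0 T u) * κ T δ := fun g hg =>
    nor_dec ht g.2 fun u => by
      obtain ⟨w, hw⟩ := (mem_normalizer_iff''.1 hg (ι u)).1 ⟨u, rfl⟩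
      exact ⟨w, (congrArg Subtype.val hw).symm⟩
  refine ⟨ι, fun _ => rfl, fun u w e => ι0_inj (inl_injective (congrArg Subtype.val e)), ?_, fun g hg => ?_,
    fun δ hδ => ⟨⟨κ T δ, mem_sup_right ⟨δ, hδ, rfl⟩⟩, fun u => Subtype.ext (κ_ι δ u)⟩,
    ⟨⟨_, hS _ n1_mem⟩, fun u hu => Subtype.ext ?_⟩, ⟨⟨_, hS _ n2_mem⟩, fun u hu => Subtype.ext ?_⟩,
    fun g f hf h => om g.2 hf fun u hu => congrArg Subtype.val (h u hu)⟩
  · refine ⟨⟨ι.range, (pgroup_Co p).of_surjective _ ι.rangeRestrict_surjective, fun {Q} hQ hle => ?_⟩, rfl⟩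
    by_contra hne
    obtain ⟨x, hx, hxn, hx'⟩ := H92.exists_mem_normalizer_not_mem hQ (lt_of_le_of_ne hle (Ne.symm hne))
    obtain ⟨u, δ, hδ, e⟩ := hn x hxn
    obtain ⟨k, hk⟩ := hQ ⟨x, hx⟩
    have h3 : (x : ΓL K) ^ p ^ k = 1 := congrArg (fun y : Q => ((y : GG T Γ) : ΓL K)) hk
    rw [e] at h3
    rw [pel hΓ hδ h3, map_one, mul_one] at e
    exact hx' ⟨u, Subtype.ext e.symm⟩
  · obtain ⟨u, δ, hδ, e⟩ := hn g hg
    exact ⟨u, δ, hδ, fun w => Subtype.ext ((by rw [← e]; rfl : _ = _).trans (act u δ w))⟩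
  · show (inl n1 * inl (ι0 T u) * (inl n1)⁻¹ : ΓL K) = inl (ι0 T u.nu1)
    rw [← map_mul, n1_conj hu, map_mul, mul_inv_cancel_right]
  · show (inl n2 * inl (ι0 T u) * (inl n2)⁻¹ : ΓL K) = inl (ι0 T u.nu2)
    rw [← map_mul, n2_conj hu, map_mul, mul_inv_cancel_right]

theorem jobReal : JobReal.{v} := fun p _ _ _ _ _ T Γ hΓ ht =>
  let ⟨ι, _, h⟩ := real p Γ hΓ ht
  ⟨GG T Γ, inferInstance, inferInstance, ι, h⟩

end H10.U4R
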